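import Cfsg.Agent.H49.Hall
import Cfsg.Agent.H49.Core
import Cfsg.Agent.H5.Complete

/-! Strongly self-centralizing subgroups: elementary facts. -/

set_option autoImplicit false
set_option linter.unusedSectionVars false

namespace Cfsg.Agent.SCS

open Cfsg Cfsg.Agent.H49 Subgroup

variable {G : Type*} [Group G]

/-- conjugates of `u` under `M` -/
def orb (M : Subgroup G) (u : G) : Set G := {v | ∃ n ∈ M, v = n * u * n⁻¹}

theorem card_orb (M : Subgroup G) (u : G) : (orb M u).ncard = (𝒞[u]).relIndex M := by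
  letI : MulAction M G := MulAction.compHom G ((MulAut.conj : G →* MulAut G).comp M.subtype)
  have h := MulAction.index_stabilizer M u
  have e1 : MulAction.orbit M u = orb M u := by
    ext v
    exact ⟨fun ⟨n, hn⟩ => ⟨n, n.2, hn.symm⟩, fun ⟨n, hn, e⟩ => ⟨⟨n, hn⟩, e.symm⟩⟩
  have e2 : MulAction.stabilizer M u = (𝒞[u]).subgroupOf M := by
    ext n
    rw [mem_subgroupOf, mem_cent1, MulAction.mem_stabilizer_iff]
    exact mul_inv_eq_iff_eq_mul
  rw [← e1, ← h, e2, relIndex]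

theorem self_mem_orb (M : Subgroup G) (u : G) : u ∈ orb M u := ⟨1, M.one_mem, by simp⟩

theorem orb_trans {M : Subgroup G} {u v w : G} (h : v ∈ orb M u) (h' : w ∈ orb M v) :
    w ∈ orb M u := by
  obtain ⟨n, hn, rfl⟩ := h
  obtain ⟨k, hk, rfl⟩ := h'
  exact ⟨k * n, M.mul_mem hk hn, by group⟩

theorem orb_symm {M : Subgroup G} {u v : G} (h : v ∈ orb M u) : u ∈ orb M v := by
  obtain ⟨n, hn, rfl⟩ := h
  exact ⟨n⁻¹, M.inv_mem hn, by group⟩

theorem orderOf_conj' (g x : G) : orderOf (g * x * g⁻¹) = orderOf x :=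
  (MulAut.conj g).orderOf_eq x

theorem order_eq {x y : G} (h : IsConj x y) : orderOf x = orderOf y := by
  obtain ⟨g, rfl⟩ := isConj_iff.1 h
  exact (orderOf_conj' g x).symm

theorem cent_card {x y : G} (h : IsConj x y) : Nat.card 𝒞[x] = Nat.card 𝒞[y] := by
  obtain ⟨g, rfl⟩ := isConj_iff.1 h
  rw [← cj_cent1, card_cj]

/-- strongly self-centralizing -/
def SC (A : Subgroup G) : Prop := ∀ a ∈ A, a ≠ 1 → 𝒞[a] = A

/-- `g` is conjugate to a nonidentity element of `A` -/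
def Meets (A : Subgroup G) (g : G) : Prop := ∃ a ∈ A, a ≠ 1 ∧ IsConj a g

theorem Meets.conj {A : Subgroup G} {g h : G} (m : Meets A g) (c : IsConj g h) : Meets A h :=
  let ⟨a, ha, a1, e⟩ := m
  ⟨a, ha, a1, e.trans c⟩

theorem Meets.ne_one {A : Subgroup G} {g : G} (m : Meets A g) : g ≠ 1 := by
  obtain ⟨a, -, a1, e⟩ := m
  rintro rfl
  exact a1 (isConj_one_left.1 e)

theorem Meets.order {A : Subgroup G} {g : G} (m : Meets A g) : orderOf g ∣ Nat.card A := by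
  obtain ⟨a, ha, -, e⟩ := m
  rw [← order_eq e]
  exact orderOf_dvd_natCard _ ha

variable [Finite G]

theorem sum_inv_le (S : Finset G) (h : ∀ x ∈ S, ∀ y ∈ S, IsConj x y → x = y) :
    ∑ x ∈ S, (1 / Nat.card 𝒞[x] : ℚ) ≤ 1 := by
  classical
  have := Fintype.ofFinite G
  have h1 := Finset.card_biUnion (s := S) (t := fun x => Finset.univ.filter (IsConj x))
    fun x hx y hy hne => Finset.disjoint_filter.2 fun z _ a b => hne (h x hx y hy (a.trans b.symm))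
  have h2 := Finset.card_le_univ (S.biUnion fun x => Finset.univ.filter (IsConj x))
  rw [h1, ← Nat.card_eq_fintype_card] at h2
  have h0 : (0 : ℚ) < Nat.card G := by exact_mod_cast Nat.card_pos
  have h3 : ∀ x : G, (1 / Nat.card 𝒞[x] : ℚ) =
      ((Finset.univ.filter (IsConj x)).card : ℚ) / Nat.card G := fun x => by
    rw [H5.card_filter_isConj, ← (𝒞[x]).card_mul_index]
    have a : (0 : ℚ) < Nat.card 𝒞[x] := by exact_mod_cast Nat.card_pos
    have b : ((𝒞[x]).index : ℚ) ≠ 0 := by exact_mod_cast index_ne_zero_of_finite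
    push_cast
    field_simp
  simp only [h3]
  rw [← Finset.sum_div, div_le_one h0]
  exact_mod_cast h2

theorem card_le_classes (S : Finset G) (h : ∀ x ∈ S, ∀ y ∈ S, IsConj x y → x = y) :
    S.card ≤ Nat.card (ConjClasses G) := by
  have := Nat.card_le_card_of_injective (fun x : S => ConjClasses.mk (x : G)) fun x y e =>
    Subtype.ext (h _ x.2 _ y.2 (ConjClasses.mk_eq_mk_iff_isConj.1 e))
  simpa using this

namespace SC

variable {A B : Subgroup G} (h : SC A)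
include h

theorem comm {a b : G} (ha : a ∈ A) (hb : b ∈ A) : a * b = b * a := by
  by_cases b1 : b = 1
  · simp [b1]
  · exact mem_cent1.1 (by rwa [h b hb b1])

theorem mem {a g : G} (ha : a ∈ A) (a1 : a ≠ 1) (e : g * a = a * g) : g ∈ A := by
  rw [← h a ha a1]
  exact mem_cent1.2 e

theorem norm {a g : G} (ha : a ∈ A) (a1 : a ≠ 1) (hg : g * a * g⁻¹ ∈ A) : g ∈ 𝒩(A) := by
  rw [mem_norm_iff_cj]
  conv_lhs => rw [← h a ha a1, cj_cent1]
  exact h _ hg fun e => a1 (by simpa using e)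

theorem cent {g : G} (m : Meets A g) : ∃ x : G, 𝒞[g] = cj x A := by
  obtain ⟨a, ha, a1, e⟩ := m
  obtain ⟨x, rfl⟩ := isConj_iff.1 e
  exact ⟨x, by rw [← cj_cent1, h a ha a1]⟩

theorem card_cent {g : G} (m : Meets A g) : Nat.card 𝒞[g] = Nat.card A := by
  obtain ⟨x, e⟩ := h.cent m
  rw [e, card_cj]

theorem meets {g y : G} (m : Meets A y) (c : g * y = y * g) (g1 : g ≠ 1) : Meets A g := by
  obtain ⟨x, e⟩ := h.cent m
  have : g ∈ cj x A := e ▸ mem_cent1.2 c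
  obtain ⟨a, ha, rfl⟩ := mem_cj'.1 this
  exact ⟨a, ha, fun a1 => g1 (by simp [a1]), isConj_iff.2 ⟨x, rfl⟩⟩

theorem sylow {p : ℕ} (hp : p.Prime) (hd : p ∣ Nat.card A) : ∃ P, IsSylowOf p P ⊤ ∧ P ≤ A := by
  obtain ⟨a, ha, o⟩ := exists_orderOf_eq_of_dvd_card hp hd
  have a1 : a ≠ 1 := fun e => hp.one_lt.ne' (by rw [← o, e, orderOf_one])
  obtain ⟨P, hP, hl⟩ := exists_sylowOf_ge (p := p) (X := zpowers a) (M := ⊤)
    (isPi_of_card_eq_prime hp (by rw [Nat.card_zpowers, o])) le_top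
  have aP := hl (mem_zpowers a)
  obtain ⟨z, hz, z1⟩ := ne_bot_iff_exists.1 (center_ne_bot_of_nilpotent hP.pi.nilpotent
    (ne_bot_iff_exists.2 ⟨a, aP, a1⟩))
  have zA : z ∈ A := h.mem ha a1 (hz.2 a aP).symm
  exact ⟨P, hP, fun y hy => h.mem zA z1 (hz.2 y hy)⟩

theorem meets_of_dvd {p : ℕ} (hp : p.Prime) (hd : p ∣ Nat.card A) {g : G} (hg : p ∣ orderOf g) :
    Meets A g := by
  obtain ⟨P, hP, hl⟩ := h.sylow hp hd
  obtain ⟨y, hy, o⟩ := exists_orderOf_eq_of_dvd_card (H := zpowers g) hp (by rwa [Nat.card_zpowers])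
  have y1 : y ≠ 1 := fun e => hp.one_lt.ne' (by rw [← o, e, orderOf_one])
  obtain ⟨x, -, hx⟩ := sylowOf_subJ hP (X := zpowers y) le_top
    (isPi_of_card_eq_prime hp (by rw [Nat.card_zpowers, o]))
  have m : Meets A y := ⟨x * y * x⁻¹, hl (hx (conj_mem_cj.2 (mem_zpowers y))),
    fun e => y1 (by simpa using e), (isConj_iff.2 ⟨x, rfl⟩ : IsConj y _).symm⟩
  obtain ⟨k, rfl⟩ := mem_zpowers_iff.1 hy
  exact h.meets m (Commute.self_zpow g k) fun e => y1 (by simp [e])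

theorem pow_dvd {p k : ℕ} (hp : p.Prime) (hd : p ∣ Nat.card A) (hk : p ^ k ∣ Nat.card G) :
    p ^ k ∣ Nat.card A := by
  obtain ⟨P, hP, hl⟩ := h.sylow hp hd
  have := card_mul_relIndex hP.le
  rw [card_top] at this
  rw [← this] at hk
  exact ((isPiNat_singleton_pow hp k).dvd_of_dvd_mul_right hP.index hk).trans (card_dvd_of_le hl)

theorem not_both (h' : SC B) (nc : ∀ g, cj g A ≠ B) {g : G} (m : Meets A g) : ¬ Meets B g := by
  intro m'
  obtain ⟨x, e⟩ := h.cent m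
  obtain ⟨y, e'⟩ := h'.cent m'
  exact nc (y⁻¹ * x) (by rw [cj_mul, ← e, e', cj_cj, inv_mul_cancel, cj_one])

theorem coprime (h' : SC B) (nc : ∀ g, cj g A ≠ B) : (Nat.card A).Coprime (Nat.card B) := by
  refine Nat.coprime_of_dvd fun p hp a b => ?_
  obtain ⟨y, -, o⟩ := exists_orderOf_eq_of_dvd_card hp a
  exact h.not_both h' nc (h.meets_of_dvd hp a o.symm.dvd) (h'.meets_of_dvd hp b o.symm.dvd)

theorem inv {n : G} (hn : n ∈ 𝒩(A)) (nA : n ∉ A) (h2 : n * n ∈ A) :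
    n * n = 1 ∧ ∀ a ∈ A, n * a * n⁻¹ = a⁻¹ := by
  refine ⟨by_contra fun e => nA (h.mem h2 e (mul_assoc _ _ _).symm), fun a ha => ?_⟩
  have hb : n * a * n⁻¹ ∈ A := conj_mem_of_norm le_rfl hn ha
  by_contra e
  refine nA (h.mem (A.mul_mem ha hb) (fun c => e (eq_inv_of_mul_eq_one_right c)) ?_)
  have e1 := h.comm h2 ha
  have e2 := h.comm ha hb
  calc n * (a * (n * a * n⁻¹)) = (n * a * n⁻¹) * (n * n * a) * n⁻¹ := by group
    _ = (n * a * n⁻¹) * a * n := by rw [e1]; group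
    _ = _ := by rw [e2]

theorem odd {n : G} (hn : n ∈ 𝒩(A)) (nA : n ∉ A) (h2 : n * n ∈ A) : ¬ 2 ∣ Nat.card A := by
  intro hd
  obtain ⟨a, ha, o⟩ := exists_orderOf_eq_of_dvd_card Nat.prime_two hd
  have a1 : a ≠ 1 := fun e => by simp [e] at o
  have a2 : a⁻¹ = a := inv_eq_of_mul_eq_one_right (by rw [← pow_two, ← o, pow_orderOf_eq_one])
  have := (h.inv hn nA h2).2 a ha
  exact nA (h.mem ha a1 (by rw [a2] at this; exact mul_inv_eq_iff_eq_mul.1 this))

omit h in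
theorem pow_mem {n : G} (hn : n ∈ 𝒩(A)) : n ^ A.relIndex 𝒩(A) ∈ A := by
  haveI := normal_subgroupOf (N := A) (M := 𝒩(A)) le_rfl
  exact mem_subgroupOf.1 ((A.subgroupOf 𝒩(A)).pow_index_mem ⟨n, hn⟩)

theorem exists_four (h1 : A ≠ ⊥) (e : A.relIndex 𝒩(A) = 4) :
    ∃ f ∈ 𝒩(A), f * f ∉ A ∧ f * f * (f * f) ∈ A := by
  by_contra hc
  have k : ∀ f ∈ 𝒩(A), f * f ∈ A := fun f hf => by_contra fun c => hc ⟨f, hf, c, by
    have := pow_mem hf
    rwa [e, show f ^ 4 = f * f * (f * f) by simp only [pow_succ, pow_zero, one_mul, mul_assoc]]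
      at this⟩
  have := Fintype.ofFinite (𝒩(A) ⧸ A.subgroupOf 𝒩(A))
  have h3 : 2 < Fintype.card (𝒩(A) ⧸ A.subgroupOf 𝒩(A)) := by
    rw [← Nat.card_eq_fintype_card, ← index, ← relIndex, e]; norm_num
  obtain ⟨x, y, z, a, b, c⟩ := Fintype.two_lt_card_iff.1 h3
  obtain ⟨x, rfl⟩ := QuotientGroup.mk_surjective x
  obtain ⟨y, rfl⟩ := QuotientGroup.mk_surjective y
  obtain ⟨z, rfl⟩ := QuotientGroup.mk_surjective z
  rw [Ne, QuotientGroup.eq, mem_subgroupOf] at a b c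
  obtain ⟨u, hu, u1⟩ := ne_bot_iff_exists.1 h1
  have e1 := (h.inv (x⁻¹ * y).2 a (k _ (x⁻¹ * y).2)).2 u hu
  have e2 := (h.inv (x⁻¹ * z).2 b (k _ (x⁻¹ * z).2)).2 u hu
  refine c (h.mem hu u1 ?_)
  simp only [coe_mul, coe_inv] at e1 e2 ⊢
  rw [← e2] at e1
  calc (y : G)⁻¹ * z * u = (y : G)⁻¹ * x * ((x : G)⁻¹ * z * u * ((x : G)⁻¹ * z)⁻¹) * (x : G)⁻¹ * z := by
        group
    _ = _ := by rw [← e1]; group

theorem transv : ∃ S : Finset G, (∀ a ∈ S, Meets A a) ∧ (∀ x ∈ S, ∀ y ∈ S, IsConj x y → x = y) ∧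
    Nat.card A ≤ A.relIndex 𝒩(A) * S.card + 1 := by
  classical
  have := Fintype.ofFinite G
  set s := Finset.univ.filter fun a => a ∈ A ∧ a ≠ 1 with hs
  obtain ⟨S, h1, h2, h3⟩ := Finset.exists_subset_injOn_image_eq_of_surjOn (f := ConjClasses.mk)
    (s : Set G) (s.image ConjClasses.mk) (by simpa using Set.surjOn_image _ _)
  have ms : ∀ a, a ∈ s ↔ a ∈ A ∧ a ≠ 1 := fun a => by simp [hs]
  refine ⟨S, fun a ha => ⟨a, ((ms a).1 (h1 ha)).1, ((ms a).1 (h1 ha)).2, IsConj.refl a⟩,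
    fun x hx y hy c => h2 hx hy (ConjClasses.mk_eq_mk_iff_isConj.2 c), ?_⟩
  have h4 := Finset.card_le_mul_card_image (f := ConjClasses.mk) s (A.relIndex 𝒩(A)) fun b hb => by
    obtain ⟨a, ha, rfl⟩ := Finset.mem_image.1 hb
    obtain ⟨aA, a1⟩ := (ms a).1 ha
    have := card_orb 𝒩(A) a
    rw [h a aA a1] at this
    rw [← this, ← Set.ncard_coe_finset]
    refine Set.ncard_le_ncard (fun y hy => ?_) (Set.toFinite _)
    obtain ⟨y1, y2⟩ := Finset.mem_filter.1 hy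
    obtain ⟨g, rfl⟩ := isConj_iff.1 (ConjClasses.mk_eq_mk_iff_isConj.1 y2.symm)
    exact ⟨g, h.norm aA a1 ((ms _).1 y1).1, rfl⟩
  rw [← h3, Finset.card_image_of_injOn h2] at h4
  have h5 : Finset.univ.filter (· ∈ A) = insert 1 s := by
    ext a
    simp only [Finset.mem_filter, Finset.mem_univ, true_and, Finset.mem_insert, ms]
    exact ⟨fun ha => (em (a = 1)).imp_right fun c => ⟨ha, c⟩, fun ha => ha.elim (· ▸ A.one_mem) (·.1)⟩
  rw [Nat.card_eq_fintype_card, Fintype.card_subtype, h5,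
    Finset.card_insert_of_notMem fun c => ((ms 1).1 c).2 rfl]
  omega

end SC

end Cfsg.Agent.SCS
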