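import Cfsg.Agent.SCS.Comb
import Cfsg.Agent.SCS.Base
import Cfsg.Agent.H5.Linear
import Cfsg.Agent.H5.ClassFn
import Cfsg.Agent.H6.Ind
import Cfsg.Agent.H88.Count

/-! The generalized characters induced from a strongly self-centralizing subgroup. -/

set_option autoImplicit false
set_option linter.unusedSectionVars false

namespace Cfsg.Agent.SCS

open Cfsg Cfsg.Agent.H49 Subgroup ComplexConjugate

variable {G : Type*} [Group G]

/-- nontrivial linear characters -/
def Du (A : Subgroup G) := {l : A →* ℂˣ // l ≠ 1}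

instance (A : Subgroup G) : MulAction 𝒩(A) (Du A) where
  smul n l := ⟨l.1.comp (MulDistribMulAction.toMonoidHom A n⁻¹), fun e => l.2 (by
    ext a
    simpa using congrArg Units.val (DFunLike.congr_fun e (n • a)))⟩
  one_smul l := Subtype.ext (MonoidHom.ext fun a => by
    show l.1 ((1 : 𝒩(A))⁻¹ • a) = l.1 a
    rw [inv_one, one_smul])
  mul_smul n k l := Subtype.ext (MonoidHom.ext fun a => by
    show l.1 ((n * k)⁻¹ • a) = l.1 (k⁻¹ • n⁻¹ • a)
    rw [mul_inv_rev, mul_smul])

theorem du_smul {A : Subgroup G} (n : 𝒩(A)) (l : Du A) (a : A) : (n • l).1 a = l.1 (n⁻¹ • a) := rfl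

theorem coe_nsmul {A : Subgroup G} (n : 𝒩(A)) (a : A) : ((n • a : A) : G) = n * a * (n : G)⁻¹ := rfl

abbrev Lam (A : Subgroup G) := MulAction.orbitRel.Quotient 𝒩(A) (Du A)

/-- `1 - λ` -/
noncomputable def be {A : Subgroup G} (l : Du A) : A → ℂ := (fun _ => 1) - fun a => (l.1 a : ℂ)

theorem be_one {A : Subgroup G} (l : Du A) : be l 1 = 0 := by simp [be]

variable [Fintype G]

instance (A : Subgroup G) : Finite (Du A) := by
  have : Finite (A →* ℂˣ) := Nat.finite_of_card_ne_zero (by
    rw [H5.card_monoidHom_eq_index_commutator]; exact index_ne_zero_of_finite)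
  exact Subtype.finite

noncomputable def th {A : Subgroup G} (l : Du A) : G → ℂ := indFun A (be l)

theorem th_class {A : Subgroup G} (l : Du A) : IsClassFunction G (th l) :=
  H6.indFun_isClassFunction _ _

theorem th_zero {A : Subgroup G} (l : Du A) {g : G} (hg : ¬ Meets A g) : th l g = 0 :=
  H6.indFun_eq_zero_of_forall A _ fun a c => by
    by_cases e : a = 1
    · rw [e, be_one]
    · exact absurd ⟨a, a.2, fun k => e (Subtype.ext k), c.symm⟩ hg

theorem inner_be {A : Subgroup G} [Fintype A] [DecidableEq (Du A)] (l l' : Du A) :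
    classInner (be l) (be l') = 1 + if l = l' then 1 else 0 := by
  classical
  have h1 := H5.classInner_monoidHom (G := A) 1 1
  have h2 := H5.classInner_monoidHom (G := A) 1 l'.1
  have h3 := H5.classInner_monoidHom (G := A) l.1 1
  have h4 := H5.classInner_monoidHom (G := A) l.1 l'.1
  simp only [MonoidHom.one_apply, Units.val_one, if_true, if_neg l.2, if_neg l'.2.symm] at h1 h2 h3
  rw [be, be, H5.classInner_sub_left, H5.classInner_sub_right, H5.classInner_sub_right, h1, h2, h3,
    h4]
  by_cases e : l = l'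
  · simp [e]
  · rw [if_neg e, if_neg fun c => e (Subtype.ext c)]; simp

theorem inner_be_one {A : Subgroup G} [Fintype A] (l : Du A) : classInner (be l) (fun _ => 1) = 1 := by
  classical
  have h1 := H5.classInner_monoidHom (G := A) 1 1
  have h3 := H5.classInner_monoidHom (G := A) l.1 1
  simp only [MonoidHom.one_apply, Units.val_one, if_true, if_neg l.2] at h1 h3
  rw [be, H5.classInner_sub_left, h1, h3, sub_zero]

theorem exists_int {A : Subgroup G} (l : Du A) (x : IrrCharacter G) :
    ∃ z : ℤ, classInner (th l) x = z := by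
  have := Fintype.ofFinite A
  have hx := H5.isCharacter_of_isIrr x.2
  rw [th, H6.classInner_indFun_left _ _ (H5.isClassFunction_of_isCharacter hx), be,
    H5.classInner_sub_left]
  obtain ⟨a, ha⟩ := H5.exists_nat_classInner H5.isCharacter_one (H5.isCharacter_restrict hx A)
  obtain ⟨b, hb⟩ := H5.exists_nat_classInner (H5.isCharacter_monoidHom l.1)
    (H5.isCharacter_restrict hx A)
  exact ⟨a - b, by rw [ha, hb]; simp⟩

/-- multiplicities -/
noncomputable def mm (A : Subgroup G) (l : Lam A) (x : IrrCharacter G) : ℤ :=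
  (exists_int l.out x).choose

theorem mm_spec {A : Subgroup G} (l : Lam A) (x : IrrCharacter G) :
    classInner (th l.out) x = mm A l x := (exists_int l.out x).choose_spec

/-- degrees -/
noncomputable def dg (x : IrrCharacter G) : ℤ := ((H5.exists_pos_nat_degree x.2).choose : ℕ)

theorem dg_pos (x : IrrCharacter G) : 0 < dg x := by
  have := (H5.exists_pos_nat_degree x.2).choose_spec.1
  unfold dg
  exact_mod_cast this

theorem dg_spec (x : IrrCharacter G) : (x : G → ℂ) 1 = dg x := by
  rw [(H5.exists_pos_nat_degree x.2).choose_spec.2, dg]; simp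

/-- the trivial character -/
def triv (G : Type*) [Group G] : IrrCharacter G := ⟨fun _ => 1, H5.isIrrCharacter_one⟩

theorem dg_triv : dg (triv G) = 1 := by
  have : (1 : ℂ) = dg (triv G) := dg_spec (triv G)
  exact_mod_cast this.symm

variable [Fintype (IrrCharacter G)]

theorem sum_mm {A B : Subgroup G} (l : Lam A) (l' : Lam B) :
    ((∑ x, mm A l x * mm B l' x : ℤ) : ℂ) = classInner (th l.out) (th l'.out) := by
  rw [H5.classInner_eq_sum_irr (th_class _)]
  push_cast
  refine Finset.sum_congr rfl fun x _ => ?_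
  rw [← H5.conj_classInner (th l'.out), mm_spec, mm_spec]
  simp

theorem th_eq {A : Subgroup G} (l : Lam A) (g : G) :
    th l.out g = ∑ x, (mm A l x : ℂ) * (x : G → ℂ) g := by
  rw [H5.classFunction_apply_eq_sum (th_class _)]
  simp only [mm_spec]

theorem orth {A B : Subgroup G} (h : ∀ g, Meets A g → ¬ Meets B g) : Orth (mm A) (mm B) := by
  intro l l'
  have := sum_mm l l'
  rw [classInner, Finset.sum_eq_zero (s := (Finset.univ : Finset G)) fun g _ => by
    by_cases c : Meets A g
    · rw [th_zero _ (h g c)]; simp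
    · rw [th_zero _ c]; simp, mul_zero] at this
  exact_mod_cast this

namespace SC

variable {A : Subgroup G} (h : SC A)
include h

theorem stab (l : Du A) : MulAction.stabilizer 𝒩(A) l = A.subgroupOf 𝒩(A) := by
  ext n
  rw [mem_subgroupOf, MulAction.mem_stabilizer_iff]
  constructor
  · intro e
    by_contra nA
    have hi : Function.Injective fun a : A => n⁻¹ • a * a⁻¹ := fun a b c => by
      by_contra ab
      have c' : (n : G)⁻¹ * a * n * (a : G)⁻¹ = (n : G)⁻¹ * b * n * (b : G)⁻¹ := by
        simpa [coe_nsmul] using congrArg Subtype.val c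
      refine nA (h.mem (A.mul_mem (A.inv_mem b.2) a.2)
        (fun k => ab (Subtype.ext (inv_mul_eq_one.1 k).symm)) ?_)
      calc (n : G) * ((b : G)⁻¹ * a) = (b : G)⁻¹ * n * ((n : G)⁻¹ * b * n * (b : G)⁻¹) * a := by
            group
        _ = _ := by rw [← c']; group
    refine l.2 (MonoidHom.ext fun b => ?_)
    obtain ⟨a, rfl⟩ := Finite.surjective_of_injective hi b
    simp only [map_mul, map_inv, ← du_smul, e, mul_inv_cancel, MonoidHom.one_apply]
  · intro hn
    refine Subtype.ext (MonoidHom.ext fun a => ?_)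
    rw [du_smul]
    congr 1
    refine Subtype.ext ?_
    rw [coe_nsmul, coe_inv, h.comm (A.inv_mem hn) a.2]
    simp

theorem card_lam : Nat.card (Lam A) * A.relIndex 𝒩(A) + 1 = Nat.card A := by
  classical
  have := Fintype.ofFinite (Lam A)
  have h1 := Nat.card_congr (MulAction.selfEquivSigmaOrbitsQuotientStabilizer 𝒩(A) (Du A))
  rw [Nat.card_sigma] at h1
  simp only [h.stab, ← index_eq_card, Finset.sum_const, Finset.card_univ, smul_eq_mul] at h1
  have h2 : Nat.card (A →* ℂˣ) = Nat.card A := by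
    rw [H5.card_monoidHom_eq_index_commutator, (commutator_eq_bot_iff_center_eq_top _).2, index_bot]
    exact eq_top_iff.2 fun a _ => mem_center_iff.2 fun b => Subtype.ext (h.comm b.2 a.2)
  have : Finite (A →* ℂˣ) := Nat.finite_of_card_ne_zero (by rw [h2]; exact Nat.card_pos.ne')
  rw [Nat.card_eq_fintype_card, relIndex, ← h1, ← h2]
  exact (Finite.card_option.symm.trans (Nat.card_congr (Equiv.optionSubtypeNe 1)))

theorem th_res [Fintype 𝒩(A)] (l : Du A) :
    (fun a : A => th l a) = (Nat.card A : ℂ)⁻¹ • ∑ n : 𝒩(A), be (n • l) := by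
  classical
  ext a
  simp only [Pi.smul_apply, Finset.sum_apply, smul_eq_mul]
  by_cases e : a = 1
  · rw [e, coe_one, th_zero l fun m => m.ne_one rfl]
    simp [be_one]
  rw [th, H6.indFun_apply, ← Finset.sum_subset (Finset.subset_univ (Finset.univ.filter (· ∈ 𝒩(A))))
    (fun x _ hx => H6.extendByZero_of_notMem _ _ fun c => hx (Finset.mem_filter.2
      ⟨Finset.mem_univ _, inv_mem_iff.1 (h.norm a.2 (fun k => e (Subtype.ext k)) (by simpa))⟩)),
    Finset.sum_subtype (p := (· ∈ 𝒩(A))) _ (by simp)]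
  congr 1
  refine Finset.sum_congr rfl fun n _ => ?_
  rw [H6.extendByZero_of_mem _ _ (conj_mem_of_norm' le_rfl n.2 a.2)]
  simp only [be, Pi.sub_apply, du_smul]
  congr 3
  exact Subtype.ext (by simp [coe_nsmul])

theorem fam [DecidableEq (IrrCharacter G)] [DecidableEq (Lam A)]
    (h2 : A.relIndex 𝒩(A) + 1 < Nat.card A) :
    Fam (triv G) dg (A.relIndex 𝒩(A)) (mm A) := by
  classical
  have := Fintype.ofFinite A
  have := Fintype.ofFinite 𝒩(A)
  refine ⟨dg_pos, ?_, fun l => ?_, fun l l' => ?_, fun l => ?_⟩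
  · rw [← Finite.one_lt_card_iff_nontrivial]
    have := h.card_lam
    by_contra c
    have : Nat.card (Lam A) * A.relIndex 𝒩(A) ≤ 1 * A.relIndex 𝒩(A) :=
      Nat.mul_le_mul_right _ (by omega)
    omega
  · have := mm_spec l (triv G)
    rw [th, H6.classInner_indFun_left _ _ (H5.isClassFunction_of_isIrr (triv G).2)] at this
    exact_mod_cast ((inner_be_one _).symm.trans this).symm
  · have e := sum_mm l l'
    rw [th, H6.classInner_indFun_left _ _ (th_class _), h.th_res, H5.classInner_smul_right,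
      H5.classInner_sum_right] at e
    simp only [inner_be, Finset.sum_add_distrib, Finset.sum_const, Finset.card_univ,
      Finset.sum_boole] at e
    have c1 := card_mul_relIndex (le_normalizer (H := A))
    have c0 : (Nat.card A : ℂ) ≠ 0 := H5.natCard_ne_zero
    have c2 : (Finset.univ.filter fun n : 𝒩(A) => l.out = n • l'.out).card =
        if l = l' then Nat.card A else 0 := by
      split_ifs with c
      · rw [← card_subgroupOf_of_le (le_normalizer (H := A)), ← h.stab l.out,
          Nat.card_eq_fintype_card, Fintype.card_subtype, c]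
        congr 1
        ext n
        simp [eq_comm]
      · rw [Finset.card_eq_zero, Finset.filter_eq_empty_iff]
        intro n _ k
        exact c (Quotient.out_equiv_out.1 ⟨n, k.symm⟩)
    rw [c2, ← Nat.card_eq_fintype_card, ← c1] at e
    have : ((∑ x, mm A l x * mm A l' x : ℤ) : ℂ) =
        (((A.relIndex 𝒩(A) : ℤ) + if l = l' then 1 else 0 : ℤ) : ℂ) := by
      rw [e]
      split_ifs
      · simp; field_simp
      · simp
    exact_mod_cast this
  · have := th_eq l 1
    rw [th_zero _ fun m => m.ne_one rfl] at this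
    simp only [dg_spec] at this
    exact_mod_cast this.symm

theorem dvd_deg {x : IrrCharacter G} (hx : ∀ l, mm A l x = 0) : (Nat.card A : ℤ) ∣ dg x := by
  classical
  have := Fintype.ofFinite A
  have := Fintype.ofFinite (IrrCharacter A)
  have hc := H5.isCharacter_of_isIrr x.2
  have hr := H5.isCharacter_restrict hc A
  obtain ⟨c, hc1⟩ := H5.exists_nat_classInner H5.isCharacter_one hr
  have k : ∀ l : A →* ℂˣ, classInner (fun a => (l a : ℂ)) (fun a : A => (x : G → ℂ) a) = c := by
    intro l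
    by_cases e : l = 1
    · simpa [e] using hc1
    set q : Lam A := Quotient.mk'' ⟨l, e⟩
    obtain ⟨n, hn⟩ : (MulAction.orbitRel 𝒩(A) (Du A)).r q.out ⟨l, e⟩ := Quotient.exact (Quotient.out_eq q)
    have e1 := mm_spec q x
    rw [hx, th, H6.classInner_indFun_left _ _ (H5.isClassFunction_of_isCharacter hc), be,
      H5.classInner_sub_left, hc1, Int.cast_zero, sub_eq_zero, ← hn] at e1
    rw [e1, ← H5.classInner_comp_equiv (MulDistribMulAction.toMulEquiv A n⁻¹)]
    congr 1
    ext a
    exact H5.isClassFunction_of_isCharacter hc _ _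
  have e2 := H5.classFunction_apply_eq_sum (H5.isClassFunction_of_isCharacter hr) 1
  have e3 := H5.sum_degree_sq (G := A)
  have e4 : ∀ ψ : IrrCharacter A, classInner (fun a : A => (x : G → ℂ) a) ψ * (ψ : A → ℂ) 1 =
      c * (ψ : A → ℂ) 1 ^ 2 := fun ψ => by
    obtain ⟨l, hl⟩ := H5.exists_monoidHom_of_comm (fun a b : A => Subtype.ext (h.comm a.2 b.2)) ψ.2
    rw [← H5.conj_classInner, hl, k]
    simp
  rw [Finset.sum_congr rfl fun ψ _ => e4 ψ, ← Finset.mul_sum, e3, coe_one, dg_spec] at e2
  exact ⟨c, by rw [mul_comm]; exact_mod_cast e2⟩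

theorem count (e : A.relIndex 𝒩(A) = 2) {t u a : G} (ht : t ∈ 𝒩(A)) (tA : t ∉ A)
    (hu : orderOf u = 2) (ha : a ∈ A) (a1 : a ≠ 1) [Decidable (IsConj u t)] :
    Nat.card {p : G × G // IsConj u p.1 ∧ IsConj u p.2 ∧ p.1 * p.2 = a} =
      if IsConj u t then Nat.card A else 0 := by
  have sq : ∀ n ∈ 𝒩(A), n * n ∈ A := fun n hn => by simpa [e, pow_two] using pow_mem hn
  have od := h.odd ht tA (sq t ht)
  have tt := (h.inv ht tA (sq t ht)).1
  have k0 : ∀ n ∈ 𝒩(A), n ∉ A → t * n ∈ A := fun n hn nA => by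
    have := (mul_mem_iff_of_index_two (H := A.subgroupOf 𝒩(A)) e (a := ⟨t, ht⟩) (b := ⟨n, hn⟩)).2
      (by simp [mem_subgroupOf, tA, nA])
    exact mem_subgroupOf.1 this
  have k1 : ∀ n ∈ 𝒩(A), n ∉ A → IsConj t n := fun n hn nA => by
    obtain ⟨k, hk⟩ : Odd (Nat.card A) := Nat.odd_iff.2 (by omega)
    have hb := A.pow_mem (k0 n hn nA) (k + 1)
    have b2 : (t * n) ^ (k + 1) * (t * n) ^ (k + 1) = t * n := by
      have := orderOf_dvd_iff_pow_eq_one.1 (orderOf_dvd_natCard _ (k0 n hn nA))
      rw [← pow_add, show k + 1 + (k + 1) = Nat.card A + 1 by omega, pow_succ, this, one_mul]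
    have b3 := (h.inv ht tA (sq t ht)).2 _ hb
    refine isConj_iff.2 ⟨((t * n) ^ (k + 1))⁻¹, ?_⟩
    generalize (t * n) ^ (k + 1) = b at b2 b3
    calc b⁻¹ * t * b⁻¹⁻¹ = (t * b * t⁻¹) * t * b := by rw [b3, inv_inv]
      _ = t * (b * b) := by simp only [mul_assoc, inv_mul_cancel_left]
      _ = n := by rw [b2, ← mul_assoc, tt, one_mul]
  have k2 : ∀ x y : G, IsConj u x → IsConj u y → x * y = a → x ∈ 𝒩(A) ∧ x ∉ A := by
    intro x y hx hy c
    have x2 : x * x = 1 := by rw [← pow_two, ← hu, order_eq hx, pow_orderOf_eq_one]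
    have y2 : y * y = 1 := by rw [← pow_two, ← hu, order_eq hy, pow_orderOf_eq_one]
    refine ⟨h.norm ha a1 ?_, fun c => od ?_⟩
    · rw [← c, ← mul_assoc, x2, one_mul, ← inv_eq_of_mul_eq_one_right y2, ← mul_inv_rev, c]
      exact A.inv_mem ha
    · rw [← hu, order_eq hx]
      exact orderOf_dvd_natCard _ c
  split_ifs with c
  · have k3 : ∀ b ∈ A, t * b ∈ 𝒩(A) ∧ t * b ∉ A := fun b hb =>
      ⟨mul_mem ht (le_normalizer hb), fun k => tA ((A.mul_mem_cancel_right hb).1 k)⟩
    refine (Nat.card_congr (Equiv.ofBijective (fun b : A => ⟨(t * b, (t * b)⁻¹ * a),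
      c.trans (k1 _ (k3 b b.2).1 (k3 b b.2).2), c.trans (k1 _
        (mul_mem (inv_mem (k3 b b.2).1) (le_normalizer ha))
        fun k => (k3 b b.2).2 (inv_mem_iff.1 ((A.mul_mem_cancel_right ha).1 k))),
        mul_inv_cancel_left _ _⟩)
      ⟨fun b b' k => Subtype.ext (mul_left_cancel (congrArg Prod.fst (congrArg Subtype.val k))),
        ?_⟩)).symm
    rintro ⟨⟨x, y⟩, hx, hy, k⟩
    obtain ⟨x1, x2⟩ := k2 x y hx hy k
    have : t * (t * x) = x := by rw [← mul_assoc, tt, one_mul]
    exact ⟨⟨t * x, k0 x x1 x2⟩, Subtype.ext (Prod.ext this (by simp [this, ← k]))⟩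
  · rw [Nat.card_eq_zero]
    refine Or.inl ⟨fun p => ?_⟩
    obtain ⟨x1, x2⟩ := k2 _ _ p.2.1 p.2.2.1 p.2.2.2
    exact c (p.2.1.trans (k1 _ x1 x2).symm)

theorem invol [IsSimpleGroup G] (e : A.relIndex 𝒩(A) = 2) (hn : 3 < Nat.card A) :
    ∃ t : G, orderOf t = 2 ∧ (∀ u, orderOf u = 2 → IsConj u t) ∧
      Nat.card A * Nat.card 𝒞[t] ^ 2 < 4 * Nat.card G := by
  classical
  have := Fintype.ofFinite A
  obtain ⟨t, ht, tA⟩ : ∃ t ∈ 𝒩(A), t ∉ A := by
    by_contra c
    push Not at c
    rw [relIndex_eq_one.2 c] at e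
    omega
  have sq : t * t ∈ A := by simpa [e, pow_two] using pow_mem ht
  have ot : orderOf t = 2 := orderOf_eq_prime (by rw [pow_two, (h.inv ht tA sq).1])
    fun c => tA (c ▸ A.one_mem)
  have F := h.fam (by omega)
  obtain ⟨l, -⟩ := F.two
  obtain ⟨x, z, xo, hd, hm⟩ := F.row (by rw [e]; rfl) dg_triv l
  have g0 : (Nat.card G : ℂ) ≠ 0 := H5.natCard_ne_zero
  have d0 : (dg x : ℂ) ≠ 0 := by exact_mod_cast (dg_pos x).ne'
  have d1 : (dg x : ℂ) + 1 ≠ 0 := by exact_mod_cast (by linarith [dg_pos x] : dg x + 1 ≠ 0)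
  have sm : ∀ f : IrrCharacter G → ℂ, ∑ y, (mm A l y : ℂ) * f y = f (triv G) + f x - f z := by
    intro f
    simp [hm, sub_mul, add_mul, Finset.sum_sub_distrib, Finset.sum_add_distrib]
  have key : ∀ u, orderOf u = 2 → ((if IsConj u t then Nat.card A else 0 : ℕ) : ℂ) * Nat.card G *
      (dg x * (dg x + 1)) = ((𝒞[u]).index : ℂ) ^ 2 * (dg x - (x : G → ℂ) u) ^ 2 := by
    intro u hu
    have e1 := th_eq l u
    rw [th_zero _ fun m => h.odd ht tA sq (hu ▸ m.order), sm] at e1
    set K : ℂ := (((𝒞[u]).index : ℕ) : ℂ)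
    set f : G → ℂ := ∑ y : IrrCharacter G,
      ((Nat.card G : ℂ)⁻¹ * K ^ 2 * ((y : G → ℂ) u ^ 2 / dg y)) • (y : G → ℂ) with hf
    have e2 : ∀ c, f c = Nat.card {p : G × G // IsConj u p.1 ∧ IsConj u p.2 ∧ p.1 * p.2 = c⁻¹} := by
      intro c
      have := H88.card_class_mul u u c⁻¹
      rw [H5.card_isConj_eq_index, inv_inv, ← eq_inv_mul_iff_mul_eq₀ g0] at this
      rw [this, hf]
      simp only [Finset.sum_apply, Pi.smul_apply, smul_eq_mul, Finset.mul_sum, dg_spec]
      exact Finset.sum_congr (by ext; simp) fun y _ => by ring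
    have e3 : classInner f (th l.out) = (if IsConj u t then Nat.card A else 0 : ℕ) := by
      have fc : IsClassFunction G f := H5.isClassFunction_sum_smul_irr _
      rw [th, H6.classInner_indFun_right _ _ fc,
        ← mul_one ((if IsConj u t then Nat.card A else 0 : ℕ) : ℂ), ← map_one conj,
        ← inner_be_one l.out, H5.conj_classInner, ← H5.classInner_smul_left, classInner, classInner]
      congr 1
      refine Finset.sum_congr rfl fun a _ => ?_
      by_cases c : a = 1
      · simp [c, be_one]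
      · rw [e2, h.count e ht tA hu (A.inv_mem a.2) fun k => c (Subtype.ext (inv_eq_one.1 k))]
        simp
    rw [hf, H5.classInner_sum_left] at e3
    rw [Finset.sum_congr rfl fun y _ => by
      rw [H5.classInner_smul_left, ← H5.conj_classInner, mm_spec, map_intCast, mul_comm],
      sm, dg_triv, hd] at e3
    have e4 : (z : G → ℂ) u = 1 + (x : G → ℂ) u := by
      have : (triv G : G → ℂ) u = 1 := rfl
      rw [this] at e1
      linear_combination e1
    rw [← e3, e4, show (triv G : G → ℂ) u = 1 from rfl]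
    push_cast
    field_simp
    ring
  have hx := H5.isCharacter_of_isIrr x.2
  refine ⟨t, ot, fun u hu => by_contra fun c => ?_, ?_⟩
  · have := key u hu
    rw [if_neg c, Nat.cast_zero, zero_mul, zero_mul, eq_comm, mul_eq_zero, pow_eq_zero_iff two_ne_zero,
      pow_eq_zero_iff two_ne_zero, Nat.cast_eq_zero, sub_eq_zero, ← dg_spec] at this
    have k : u ∈ H5.charKer hx := (H5.mem_charKer hx).2
      (this.resolve_left index_ne_zero_of_finite).symm
    rcases (H5.instNormalCharKer hx).eq_bot_or_eq_top with b | b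
    · rw [b, mem_bot] at k
      simp [k] at hu
    · exact xo (Subtype.ext (H5.eq_one_of_forall_eq_degree x.2 fun g =>
        (H5.mem_charKer hx).1 (b ▸ mem_top g)))
  · have e1 := congrArg (fun w : ℂ => ‖w‖) (key t ot)
    have e2 := H5.norm_apply_le_degree hx t
    have p : (0 : ℝ) < dg x := by exact_mod_cast dg_pos x
    rw [dg_spec, Complex.norm_intCast, abs_of_pos p] at e2
    have e3 := norm_sub_le (dg x : ℂ) ((x : G → ℂ) t)
    rw [Complex.norm_intCast, abs_of_pos p] at e3
    have e4 : ‖(dg x : ℂ) + 1‖ = dg x + 1 := by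
      rw [← Int.cast_one, ← Int.cast_add, Complex.norm_intCast, abs_of_pos (by push_cast; linarith)]
      simp
    simp only [IsConj.refl, if_true, norm_mul, norm_pow, Complex.norm_natCast, Complex.norm_intCast,
      abs_of_pos p, e4] at e1
    have c1 : (Nat.card 𝒞[t] : ℝ) * (𝒞[t]).index = Nat.card G := by
      exact_mod_cast (𝒞[t]).card_mul_index
    have k0 : (0 : ℝ) < (𝒞[t]).index := by
      exact_mod_cast Nat.pos_of_ne_zero index_ne_zero_of_finite
    have c0 : (0 : ℝ) < Nat.card 𝒞[t] := by exact_mod_cast Nat.card_pos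
    have e5 : ‖(dg x : ℂ) - (x : G → ℂ) t‖ ^ 2 < 4 * (dg x * (dg x + 1)) := by
      nlinarith [norm_nonneg ((dg x : ℂ) - (x : G → ℂ) t)]
    have e6 : (Nat.card A : ℝ) * Nat.card G < (𝒞[t]).index ^ 2 * 4 := by
      refine lt_of_mul_lt_mul_right (a := (dg x : ℝ) * (dg x + 1)) ?_ (by positivity)
      rw [e1, mul_assoc]
      exact mul_lt_mul_of_pos_left e5 (by positivity)
    have e7 : (Nat.card A : ℝ) * Nat.card 𝒞[t] < (𝒞[t]).index * 4 := by
      refine lt_of_mul_lt_mul_right (a := ((𝒞[t]).index : ℝ)) ?_ k0.le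
      rw [← c1] at e6
      linarith
    have : (Nat.card A : ℝ) * Nat.card 𝒞[t] ^ 2 < 4 * Nat.card G := by
      rw [← c1]
      nlinarith
    exact_mod_cast this

end SC

end Cfsg.Agent.SCS
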