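import Cfsg.Agent.SCS.Chr

/-! Counting the classes that miss the three subgroups. -/

set_option autoImplicit false
set_option linter.unusedSectionVars false

namespace Cfsg.Agent.SCS

open Cfsg Cfsg.Agent.H49 Subgroup

variable {G : Type*} [Group G]

/-- pairwise non-conjugate -/
def PW (S : Finset G) : Prop := ∀ x ∈ S, ∀ y ∈ S, IsConj x y → x = y

theorem PW.union [DecidableEq G] {S T : Finset G} (hS : PW S) (hT : PW T)
    (h : ∀ x ∈ S, ∀ y ∈ T, ¬ IsConj x y) : PW (S ∪ T) ∧ Disjoint S T := by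
  refine ⟨fun x hx y hy c => ?_, Finset.disjoint_left.2 fun x hx hy => h x hx x hy (IsConj.refl x)⟩
  rcases Finset.mem_union.1 hx with hx | hx <;> rcases Finset.mem_union.1 hy with hy | hy
  exacts [hS x hx y hy c, absurd c (h x hx y hy), absurd c.symm (h y hy x hx), hT x hx y hy c]

structure Hy (A₁ A₂ A₃ : Subgroup G) : Prop where
  s1 : SC A₁
  s2 : SC A₂
  s3 : SC A₃
  c12 : ∀ g, cj g A₁ ≠ A₂
  c13 : ∀ g, cj g A₁ ≠ A₃
  c23 : ∀ g, cj g A₂ ≠ A₃
  e1 : A₁.relIndex 𝒩(A₁) = 2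
  e2 : A₂.relIndex 𝒩(A₂) = 4
  e3 : A₃.relIndex 𝒩(A₃) = 4
  n1 : 5 ≤ Nat.card A₁
  n2 : 5 < Nat.card A₂
  n3 : 5 < Nat.card A₃
  ord : Nat.card G ≤ 3 * Nat.card A₁ ^ 2 * Nat.card A₂ ^ 2 * Nat.card A₃ ^ 2

/-- the remaining elements -/
def RR (A₁ A₂ A₃ : Subgroup G) (g : G) : Prop := ¬ Meets A₁ g ∧ ¬ Meets A₂ g ∧ ¬ Meets A₃ g

variable [Finite G]

theorem SC.mod {A : Subgroup G} (h : SC A) : ∃ w, w * A.relIndex 𝒩(A) + 1 = Nat.card A := by
  have := Fintype.ofFinite G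
  have := Fintype.ofFinite (IrrCharacter G)
  exact ⟨_, h.card_lam⟩

theorem sum_meets {A : Subgroup G} (h : SC A) {S : Finset G} (hS : ∀ a ∈ S, Meets A a) {e : ℕ}
    (he : 0 < e) (hc : Nat.card A ≤ e * S.card + 1) :
    (1 / e - 1 / (e * Nat.card A) : ℚ) ≤ ∑ x ∈ S, (1 / Nat.card 𝒞[x] : ℚ) := by
  rw [Finset.sum_congr rfl fun x hx => by rw [h.card_cent (hS x hx)], Finset.sum_const, nsmul_eq_mul]
  have a : (0 : ℚ) < Nat.card A := by exact_mod_cast Nat.card_pos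
  have b : (0 : ℚ) < e := by exact_mod_cast he
  have c : (Nat.card A : ℚ) ≤ e * S.card + 1 := by exact_mod_cast hc
  rw [← sub_nonneg]
  have : (S.card : ℚ) * (1 / Nat.card A) - (1 / e - 1 / (e * Nat.card A)) =
      (e * S.card + 1 - Nat.card A) / (e * Nat.card A) := by field_simp; ring
  rw [this]
  exact div_nonneg (by linarith) (by positivity)

namespace Hy

variable {A₁ A₂ A₃ : Subgroup G} (h : Hy A₁ A₂ A₃)
include h

theorem mod2 : Nat.card A₂ % 4 = 1 := by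
  obtain ⟨w, e⟩ := h.s2.mod
  rw [h.e2] at e
  omega

theorem mod3 : Nat.card A₃ % 4 = 1 := by
  obtain ⟨w, e⟩ := h.s3.mod
  rw [h.e3] at e
  omega

theorem mod1 : Nat.card A₁ % 2 = 1 := by
  obtain ⟨w, e⟩ := h.s1.mod
  rw [h.e1] at e
  omega

theorem classes {S : Finset G} (hS : PW S) (hR : ∀ x ∈ S, RR A₁ A₂ A₃ x) :
    S.card ≤ 6 ∧ (5 ≤ S.card → (Nat.card A₁ * Nat.card A₂ * Nat.card A₃) ^ 2 < Nat.card G) ∧
      ∑ x ∈ S, (1 / Nat.card 𝒞[x] : ℚ) < 1 / 6 := by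
  classical
  have := Fintype.ofFinite G
  have := Fintype.ofFinite (IrrCharacter G)
  have := Fintype.ofFinite (Lam A₁)
  have := Fintype.ofFinite (Lam A₂)
  have := Fintype.ofFinite (Lam A₃)
  have n1 := h.n1
  have n2 := h.n2
  have n3 := h.n3
  obtain ⟨S₁, m1, p1, k1⟩ := h.s1.transv
  obtain ⟨S₂, m2, p2, k2⟩ := h.s2.transv
  obtain ⟨S₃, m3, p3, k3⟩ := h.s3.transv
  have b12 := fun g => h.s1.not_both h.s2 h.c12 (g := g)
  have b13 := fun g => h.s1.not_both h.s3 h.c13 (g := g)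
  have b23 := fun g => h.s2.not_both h.s3 h.c23 (g := g)
  obtain ⟨q3, d3⟩ := PW.union p3 hS fun x hx y hy c => (hR y hy).2.2 ((m3 x hx).conj c)
  obtain ⟨q2, d2⟩ := PW.union p2 q3 fun x hx y hy c => (Finset.mem_union.1 hy).elim
    (fun hy => b23 y ((m2 x hx).conj c) (m3 y hy)) fun hy => (hR y hy).2.1 ((m2 x hx).conj c)
  obtain ⟨q1, d1⟩ := PW.union p1 q2 fun x hx y hy c => (Finset.mem_union.1 hy).elim
    (fun hy => b12 y ((m1 x hx).conj c) (m2 y hy)) fun hy => (Finset.mem_union.1 hy).elim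
    (fun hy => b13 y ((m1 x hx).conj c) (m3 y hy)) fun hy => (hR y hy).1 ((m1 x hx).conj c)
  have c1 := card_le_classes _ q1
  have c2 := sum_inv_le _ q1
  rw [Finset.card_union_of_disjoint d1, Finset.card_union_of_disjoint d2,
    Finset.card_union_of_disjoint d3, ← H5.card_irrCharacter, Nat.card_eq_fintype_card] at c1
  rw [Finset.sum_union d1, Finset.sum_union d2, Finset.sum_union d3] at c2
  have F1 := h.s1.fam (by rw [h.e1]; omega)
  have F2 := h.s2.fam (by rw [h.e2]; omega)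
  have F3 := h.s3.fam (by rw [h.e3]; omega)
  have l1 := h.s1.card_lam
  have l2 := h.s2.card_lam
  have l3 := h.s3.card_lam
  rw [h.e1] at F1 l1 k1
  rw [h.e2] at F2 l2 k2
  rw [h.e3] at F3 l3 k3
  obtain ⟨Z, hZ, c3⟩ := card_bound F1 F2 (orth b12) F3 (orth b13) (orth b23)
  rw [Nat.card_eq_fintype_card] at l1 l2 l3
  set N := Nat.card A₁ * Nat.card A₂ * Nat.card A₃ with hN
  have z1 : ∀ x ∈ Z, (N : ℤ) ^ 2 ≤ dg x ^ 2 := fun x hx => by
    obtain ⟨a, b, c⟩ := hZ x hx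
    have a' := Int.natCast_dvd.1 (h.s1.dvd_deg a)
    have b' := Int.natCast_dvd.1 (h.s2.dvd_deg b)
    have c' := Int.natCast_dvd.1 (h.s3.dvd_deg c)
    have := Nat.Coprime.mul_dvd_of_dvd_of_dvd (Nat.Coprime.mul_left (h.s1.coprime h.s3 h.c13)
      (h.s2.coprime h.s3 h.c23)) ((h.s1.coprime h.s2 h.c12).mul_dvd_of_dvd_of_dvd a' b') c'
    exact pow_le_pow_left₀ (by positivity) (Int.le_of_dvd (dg_pos x) (Int.natCast_dvd.2 this)) 2
  have z2 : ∑ x : IrrCharacter G, dg x ^ 2 = Nat.card G := by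
    have := H5.sum_degree_sq (G := G)
    simp only [dg_spec] at this
    exact_mod_cast this
  have z3 : triv G ∉ Z := fun c => by
    obtain ⟨l, -⟩ := F1.two
    have := (hZ _ c).1 l
    rw [F1.one] at this
    exact one_ne_zero this
  have z4 := Finset.sum_le_univ_sum_of_nonneg (s := insert (triv G) Z) (f := fun x => dg x ^ 2)
    fun x => sq_nonneg _
  have z5 := Finset.card_nsmul_le_sum Z _ _ z1
  rw [Finset.sum_insert z3, z2, dg_triv] at z4
  rw [nsmul_eq_mul] at z5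
  have z6 : Z.card * N ^ 2 < Nat.card G := by
    have : (Z.card : ℤ) * N ^ 2 < Nat.card G := by linarith
    exact_mod_cast this
  have z7 : Z.card < 3 := by
    have := h.ord
    refine lt_of_mul_lt_mul_right (a := N ^ 2) (z6.trans_le (this.trans_eq ?_)) (Nat.zero_le _)
    rw [hN]; ring
  refine ⟨by omega, fun c => lt_of_le_of_lt (Nat.le_mul_of_pos_left _ (by omega)) z6, ?_⟩
  have t1 := sum_meets h.s1 m1 two_pos k1
  have t2 := sum_meets h.s2 m2 four_pos k2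
  have t3 := sum_meets h.s3 m3 four_pos k3
  have a1 : (5 : ℚ) ≤ Nat.card A₁ := by exact_mod_cast n1
  have a2 : (9 : ℚ) ≤ Nat.card A₂ := by exact_mod_cast (by omega : 9 ≤ Nat.card A₂)
  have a3 : (9 : ℚ) ≤ Nat.card A₃ := by exact_mod_cast (by omega : 9 ≤ Nat.card A₃)
  have u1 := one_div_le_one_div_of_le (a := (10 : ℚ)) (b := (2 : ℕ) * Nat.card A₁) (by norm_num)
    (by push_cast; linarith)
  have u2 := one_div_le_one_div_of_le (a := (36 : ℚ)) (b := (4 : ℕ) * Nat.card A₂) (by norm_num)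
    (by push_cast; linarith)
  have u3 := one_div_le_one_div_of_le (a := (36 : ℚ)) (b := (4 : ℕ) * Nat.card A₃) (by norm_num)
    (by push_cast; linarith)
  push_cast at t1 t2 t3 u1 u2 u3
  linarith

/-- membership in the remaining classes, by the order -/
theorem rr_iff {g : G} : RR A₁ A₂ A₃ g ↔
    ∀ p : ℕ, p.Prime → p ∣ orderOf g → ¬ p ∣ Nat.card A₁ * Nat.card A₂ * Nat.card A₃ := by
  constructor
  · intro r p hp hg c
    rcases (hp.dvd_mul).1 c with c | c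
    · rcases (hp.dvd_mul).1 c with c | c
      exacts [r.1 (h.s1.meets_of_dvd hp c hg), r.2.1 (h.s2.meets_of_dvd hp c hg)]
    · exact r.2.2 (h.s3.meets_of_dvd hp c hg)
  · intro r
    have k : ∀ A : Subgroup G, Nat.card A ∣ Nat.card A₁ * Nat.card A₂ * Nat.card A₃ →
        ¬ Meets A g := fun A d m => by
      obtain ⟨p, hp, c⟩ := Nat.exists_prime_and_dvd (n := orderOf g)
        fun e => m.ne_one (orderOf_eq_one_iff.1 e)
      exact r p hp c (c.trans (m.order.trans d))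
    exact ⟨k _ ⟨_, mul_assoc _ _ _⟩, k _ (dvd_mul_of_dvd_left (dvd_mul_left _ _) _),
      k _ (dvd_mul_left _ _)⟩

theorem rr_comm {x y : G} (r : RR A₁ A₂ A₃ x) (x1 : x ≠ 1) (c : x * y = y * x) :
    RR A₁ A₂ A₃ y :=
  ⟨fun m => r.1 (h.s1.meets m c x1), fun m => r.2.1 (h.s2.meets m c x1),
    fun m => r.2.2 (h.s3.meets m c x1)⟩

theorem odd : ¬ 2 ∣ Nat.card A₁ * Nat.card A₂ * Nat.card A₃ := by
  have a := h.mod1
  have b := h.mod2
  have c := h.mod3
  rw [Nat.prime_two.dvd_mul, Nat.prime_two.dvd_mul]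
  omega

end Hy

end Cfsg.Agent.SCS
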