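import Mathlib.Algebra.Order.BigOperators.Ring.Finset
import Mathlib.Algebra.BigOperators.Ring.Finset
import Mathlib.Data.Fintype.Card
import Mathlib.Tactic

/-! Integer matrices of exceptional characters for three TI subgroups. -/

set_option autoImplicit false
set_option linter.unusedSectionVars false

namespace Cfsg.Agent.SCS

open Finset

variable {I : Type*} [Fintype I] [DecidableEq I]

theorem two_supp {v : I → ℤ} (h : ∑ y, v y * v y = 2) :
    ∃ x x', x ≠ x' ∧ v x * v x = 1 ∧ v x' * v x' = 1 ∧ ∀ g : I → ℤ,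
      ∑ y, v y * g y = v x * g x + v x' * g x' := by
  have h1 : ∀ y, v y ≠ 0 → v y * v y = 1 := by
    intro y hy
    have : v y * v y ≤ 2 := h ▸ single_le_sum (f := fun y => v y * v y)
      (fun i _ => mul_self_nonneg _) (mem_univ y)
    have a : v y ≤ 1 := by nlinarith
    have b : -1 ≤ v y := by nlinarith
    have : v y = 1 ∨ v y = -1 := by omega
    rcases this with e | e <;> simp [e]
  have h2 : ∀ g : I → ℤ, ∑ y, v y * g y = ∑ y ∈ univ.filter (fun y => v y ≠ 0), v y * g y := by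
    intro g
    rw [sum_filter]
    exact sum_congr rfl fun y _ => by by_cases e : v y = 0 <;> simp [e]
  have h3 : (univ.filter (fun y => v y ≠ 0)).card = 2 := by
    have := h2 v
    rw [h, sum_congr rfl (fun y hy => h1 y (mem_filter.1 hy).2)] at this
    simp only [sum_const, nsmul_eq_mul, mul_one] at this
    exact_mod_cast this.symm
  obtain ⟨x, x', hne, hs⟩ := card_eq_two.1 h3
  have hx : x ∈ univ.filter (fun y => v y ≠ 0) := by rw [hs]; simp
  have hx' : x' ∈ univ.filter (fun y => v y ≠ 0) := by rw [hs]; simp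
  exact ⟨x, x', hne, h1 x (mem_filter.1 hx).2, h1 x' (mem_filter.1 hx').2, fun g => by
    rw [h2, hs, sum_pair hne]⟩

theorem pm_one {a : ℤ} (h : a * a = 1) : a = 1 ∨ a = -1 := mul_self_eq_one_iff.1 h

/-- One family of rows. -/
structure Fam (o : I) (d : I → ℤ) {Λ : Type*} [DecidableEq Λ] (e : ℤ) (m : Λ → I → ℤ) : Prop where
  pos : ∀ x, 0 < d x
  two : Nontrivial Λ
  one : ∀ l, m l o = 1
  gram : ∀ l l', ∑ x, m l x * m l' x = e + if l = l' then 1 else 0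
  deg : ∀ l, ∑ x, m l x * d x = 0

def NC {Λ : Type*} (m : Λ → I → ℤ) (x : I) : Prop := ∃ l l', m l x ≠ m l' x

def Orth {Λ Λ' : Type*} (m : Λ → I → ℤ) (m' : Λ' → I → ℤ) : Prop :=
  ∀ l l', ∑ x, m l x * m' l' x = 0

theorem Orth.symm {Λ Λ' : Type*} {m : Λ → I → ℤ} {m' : Λ' → I → ℤ} (h : Orth m m') : Orth m' m :=
  fun l l' => by rw [← h l' l]; exact sum_congr rfl fun _ _ => mul_comm _ _

theorem sum_ind (v : I → ℤ) (x : I) : ∑ y, v y * (if y = x then 1 else 0) = v x := by simp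

namespace Fam

variable {o : I} {d : I → ℤ} {Λ : Type*} [DecidableEq Λ] {e : ℤ} {m : Λ → I → ℤ} (F : Fam o d e m)
include F

theorem not_nc : ¬ NC m o := fun ⟨l, l', h⟩ => h (by rw [F.one, F.one])

theorem sq_diff {l l' : Λ} (h : l ≠ l') : ∑ y, (m l y - m l' y) * (m l y - m l' y) = 2 := by
  have : ∀ y, (m l y - m l' y) * (m l y - m l' y) =
      m l y * m l y - m l y * m l' y - m l' y * m l y + m l' y * m l' y := fun y => by ring
  simp only [this, sum_add_distrib, sum_sub_distrib, F.gram, if_neg h, if_neg h.symm, if_true]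
  ring

theorem diff {l l' : Λ} (h : l ≠ l') : ∃ x x', x ≠ x' ∧ ∀ g : I → ℤ,
    ∑ y, (m l y - m l' y) * g y = g x - g x' := by
  obtain ⟨x, x', hne, a, b, hg⟩ := two_supp (F.sq_diff h)
  have hd := hg d
  simp only [sub_mul, sum_sub_distrib, F.deg] at hd
  have p := F.pos x
  have q := F.pos x'
  rcases pm_one a with a | a <;> rcases pm_one b with b | b
  · exfalso; nlinarith
  · exact ⟨x, x', hne, fun g => by rw [hg, a, b]; ring⟩
  · exact ⟨x', x, hne.symm, fun g => by rw [hg, a, b]; ring⟩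
  · exfalso; nlinarith

theorem partner {x : I} (hx : NC m x) : ∃ x', x ≠ x' ∧ NC m x' ∧ ∃ l l', ∀ g : I → ℤ,
    ∑ y, (m l y - m l' y) * g y = g x - g x' := by
  obtain ⟨l, l', h⟩ := hx
  obtain ⟨y, y', hne, hg⟩ := F.diff (l := l) (l' := l') (fun e => h (by rw [e]))
  have e0 := fun z => (sum_ind (fun y => m l y - m l' y) z).symm.trans
    (hg fun w => if w = z then 1 else 0)
  by_cases a : y = x
  · subst a
    refine ⟨y', hne, ⟨l, l', fun e => ?_⟩, l, l', hg⟩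
    have := e0 y'
    simp [e, hne] at this
  · by_cases b : y' = x
    · subst b
      refine ⟨y, hne.symm, ⟨l, l', fun e => ?_⟩, l', l, fun g => ?_⟩
      · have := e0 y
        simp [e, hne.symm] at this
      · have := hg g
        simp only [sub_mul, sum_sub_distrib] at this ⊢
        linarith
    · have := e0 x
      simp only [if_neg a, if_neg b] at this
      exact absurd (by linarith) h

theorem partner' {x : I} (hx : NC m x) : ∃ x', x ≠ x' ∧ NC m x' ∧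
    ∀ g : I → ℤ, (∀ l, ∑ y, m l y * g y = 0) → g x = g x' := by
  obtain ⟨x', a, b, l, l', hg⟩ := F.partner hx
  refine ⟨x', a, b, fun g h => ?_⟩
  have := hg g
  simp only [sub_mul, sum_sub_distrib, h] at this
  linarith

theorem disj {Λ' : Type*} [DecidableEq Λ'] {e' : ℤ} {m' : Λ' → I → ℤ} (F' : Fam o d e' m')
    (h : Orth m m') {x : I} (hx : NC m x) : ¬ NC m' x := by
  intro hx'
  obtain ⟨y, a, -, hy⟩ := F.partner' hx
  obtain ⟨z, b, -, l, l', hg⟩ := F'.partner hx'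
  have e0 := fun w => (sum_ind (fun y => m' l y - m' l' y) w).symm.trans
    (hg fun u => if u = w then 1 else 0)
  have e1 := e0 x
  have e2 := e0 y
  rw [← hy _ (fun k => h k l), ← hy _ (fun k => h k l'), e1] at e2
  simp only [if_true, if_neg a, if_neg b.symm] at e2
  split_ifs at e2 <;> omega

theorem sq_le (s : Finset I) (ho : o ∉ s) (hs : ∀ x ∈ s, ¬ NC m x) (l : Λ) :
    ∑ x ∈ s, m l x * m l x ≤ e - 1 := by
  obtain ⟨a, b, hab⟩ := F.two
  obtain ⟨x, x', hne, hg⟩ := F.diff hab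
  have e0 := (sum_ind (fun y => m a y - m b y) x).symm.trans (hg fun w => if w = x then 1 else 0)
  simp only [if_true, if_neg hne.symm] at e0
  have hx : NC m x := ⟨a, b, by omega⟩
  obtain ⟨k, hk⟩ : ∃ k, m k x ≠ 0 := by
    by_cases h : m a x = 0
    · exact ⟨b, by omega⟩
    · exact ⟨a, h⟩
  have h1 : ∑ y ∈ s, m l y * m l y = ∑ y ∈ s, m k y * m k y := sum_congr rfl fun y hy => by
    have : m l y = m k y := by
      by_contra c
      exact hs y hy ⟨l, k, c⟩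
    rw [this]
  have hxs : x ∉ s := fun c => hs x c hx
  have hxo : x ∉ insert o s := by
    rw [mem_insert, not_or]
    exact ⟨fun c => F.not_nc (c ▸ hx), hxs⟩
  have h2 := sum_le_univ_sum_of_nonneg (s := insert x (insert o s))
    (f := fun y => m k y * m k y) fun y => mul_self_nonneg _
  rw [sum_insert hxo, sum_insert ho, F.gram, F.one, if_pos rfl] at h2
  have : 0 < m k x * m k x := mul_self_pos.2 hk
  linarith

theorem card_le (s : Finset I) (ho : o ∉ s) (hs : ∀ x ∈ s, ¬ NC m x) (l : Λ)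
    (h0 : ∀ x ∈ s, m l x ≠ 0) : (s.card : ℤ) ≤ e - 1 := by
  refine le_trans ?_ (F.sq_le s ho hs l)
  have := card_nsmul_le_sum s (fun x => m l x * m l x) 1 fun x hx => mul_self_pos.2 (h0 x hx)
  simpa using this

theorem card_nc [Fintype Λ] (s : Finset I) (hs : ∀ x ∈ s, NC m x) : s.card ≤ Fintype.card Λ := by
  have h1 : ∀ x ∈ s, 2 * ((Fintype.card Λ : ℤ) - 1) ≤
      ∑ l, ∑ l', (m l x - m l' x) * (m l x - m l' x) := by
    intro x hx
    obtain ⟨a, b, hab⟩ := hs x hx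
    have hne : a ≠ b := fun c => hab (by rw [c])
    have k1 : ∀ l, 1 ≤ (m a x - m l x) * (m a x - m l x) + (m b x - m l x) * (m b x - m l x) := by
      intro l
      by_cases c : m a x = m l x
      · have : 0 < (m b x - m l x) * (m b x - m l x) := mul_self_pos.2 (by omega)
        nlinarith [mul_self_nonneg (m a x - m l x)]
      · have : 0 < (m a x - m l x) * (m a x - m l x) := mul_self_pos.2 (by omega)
        nlinarith [mul_self_nonneg (m b x - m l x)]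
    have k2 : ∀ l, 1 ≤ ∑ l', (m l x - m l' x) * (m l x - m l' x) := by
      intro l
      have := sum_le_univ_sum_of_nonneg (s := {a, b})
        (f := fun l' => (m l x - m l' x) * (m l x - m l' x)) fun y => mul_self_nonneg _
      rw [sum_pair hne] at this
      nlinarith [k1 l]
    have k3 := sum_le_sum (s := univ) fun l _ => k1 l
    rw [sum_add_distrib] at k3
    have k4 := sum_le_sum (s := univ \ {a, b}) fun l _ => k2 l
    rw [← sum_sdiff (subset_univ {a, b}), sum_pair hne]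
    simp only [sum_const, nsmul_eq_mul, mul_one, card_univ] at k3 k4
    rw [card_sdiff_of_subset (subset_univ _), card_pair hne, card_univ, Nat.cast_sub (by
      have := F.two; exact Fintype.one_lt_card)] at k4
    push_cast at k4
    linarith
  have h2 : ∑ x, ∑ l, ∑ l', (m l x - m l' x) * (m l x - m l' x) =
      Fintype.card Λ * (2 * ((Fintype.card Λ : ℤ) - 1)) := by
    rw [sum_comm]
    have : ∀ l, ∑ x, ∑ l', (m l x - m l' x) * (m l x - m l' x) =
        2 * ((Fintype.card Λ : ℤ) - 1) := by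
      intro l
      rw [sum_comm]
      have : ∀ l', ∑ x, (m l x - m l' x) * (m l x - m l' x) = 2 - if l = l' then 2 else 0 := by
        intro l'
        split_ifs with c
        · simp [c]
        · rw [F.sq_diff c]; simp
      simp only [this, sum_sub_distrib, sum_const, card_univ, sum_ite_eq, mem_univ, if_true,
        nsmul_eq_mul]
      ring
    simp only [this, sum_const, card_univ, nsmul_eq_mul]
  have h3 := card_nsmul_le_sum s _ _ h1
  have h4 := sum_le_univ_sum_of_nonneg (s := s)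
    (f := fun x => ∑ l, ∑ l', (m l x - m l' x) * (m l x - m l' x))
    fun x => sum_nonneg fun _ _ => sum_nonneg fun _ _ => mul_self_nonneg _
  rw [h2] at h4
  have := F.two
  have h5 : (1 : ℤ) < Fintype.card Λ := by exact_mod_cast Fintype.one_lt_card
  rw [nsmul_eq_mul] at h3
  have : (s.card : ℤ) ≤ Fintype.card Λ := le_of_mul_le_mul_right (h3.trans h4) (by linarith)
  exact_mod_cast this

theorem orth_sub {Λ' : Type*} [DecidableEq Λ'] {e' : ℤ} {m' : Λ' → I → ℤ} (F' : Fam o d e' m')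
    (h : Orth m m') (l : Λ) (l' : Λ') (s : Finset I) (ho : o ∉ s)
    (hs : ∀ x, x ≠ o → x ∉ s → m l x = 0 ∨ m' l' x = 0) : ∑ x ∈ s, m l x * m' l' x = -1 := by
  have h1 := h l l'
  rw [← sum_subset (subset_univ (insert o s)) (fun x _ hx => by
    rw [mem_insert, not_or] at hx
    exact mul_eq_zero.2 (hs x hx.1 hx.2)), sum_insert ho, F.one, F'.one] at h1
  linarith

/-- The rows of a family with `e = 2`. -/
theorem row (h2 : e = 2) (hd : d o = 1) (l : Λ) : ∃ x z, x ≠ o ∧ d z = d x + 1 ∧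
    ∀ y, m l y = (if y = o then 1 else 0) + (if y = x then 1 else 0) - if y = z then 1 else 0 := by
  have h1 : ∑ y, (m l y - if y = o then 1 else 0) * (m l y - if y = o then 1 else 0) = 2 := by
    have : ∀ y, (m l y - if y = o then 1 else 0) * (m l y - if y = o then 1 else 0) =
        m l y * m l y - if y = o then 1 else 0 := fun y => by
      split_ifs with c
      · rw [c, F.one]; simp
      · simp
    simp only [this, sum_sub_distrib, F.gram, if_true, sum_ite_eq', mem_univ, h2]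
    norm_num
  obtain ⟨x, x', hne, a, b, hg⟩ := two_supp h1
  have hd' := hg d
  simp only [sub_mul, sum_sub_distrib, F.deg, ite_mul, one_mul, zero_mul, sum_ite_eq', mem_univ,
    if_true, hd] at hd'
  have p := F.pos x
  have q := F.pos x'
  have e0 := fun w => (sum_ind (fun y => m l y - if y = o then 1 else 0) w).symm.trans
    (hg fun u => if u = w then 1 else 0)
  have xo : x ≠ o := fun c => by simp [c, F.one] at a
  have xo' : x' ≠ o := fun c => by simp [c, F.one] at b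
  simp only [if_neg xo, if_neg xo', sub_zero] at a b hd' e0
  rcases pm_one a with a | a <;> rcases pm_one b with b | b <;> rw [a, b] at hd' e0
  · exfalso; linarith
  · refine ⟨x, x', xo, by linarith, fun y => ?_⟩
    have := e0 y
    simp only [@eq_comm _ y x, @eq_comm _ y x']
    linarith
  · refine ⟨x', x, xo', by linarith, fun y => ?_⟩
    have := e0 y
    simp only [@eq_comm _ y x, @eq_comm _ y x']
    linarith
  · exfalso; linarith

end Fam

section Three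

variable {o : I} {d : I → ℤ} {Λ₁ Λ₂ Λ₃ : Type*} [DecidableEq Λ₁] [DecidableEq Λ₂] [DecidableEq Λ₃]
  {m₁ : Λ₁ → I → ℤ} {m₂ : Λ₂ → I → ℤ} {m₃ : Λ₃ → I → ℤ}
  (F₁ : Fam o d 2 m₁) (F₂ : Fam o d 4 m₂) (O₁₂ : Orth m₁ m₂)
include F₁ F₂ O₁₂

theorem van {x : I} (hx : NC m₂ x) (a : Λ₁) : m₁ a x = 0 := by
  by_contra h
  obtain ⟨y, hne, hy, e⟩ := F₂.partner' hx
  have e1 := e _ fun l => O₁₂.symm l a
  have := F₁.card_le {x, y} (by
    simp only [mem_insert, mem_singleton, not_or]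
    exact ⟨fun c => F₂.not_nc (c ▸ hx), fun c => F₂.not_nc (c ▸ hy)⟩) (by
    simp only [mem_insert, mem_singleton]
    rintro z (rfl | rfl)
    exacts [F₂.disj F₁ O₁₂.symm hx, F₂.disj F₁ O₁₂.symm hy]) a (by
    simp only [mem_insert, mem_singleton]
    rintro z (rfl | rfl)
    exacts [h, e1 ▸ h])
  rw [card_pair hne] at this
  norm_num at this

variable (F₃ : Fam o d 4 m₃) (O₁₃ : Orth m₁ m₃) (O₂₃ : Orth m₂ m₃) (a : Λ₁) (b : Λ₂) (c : Λ₃)
  {U : Finset I} (hU : ∀ x, x ∈ U ↔ x ≠ o ∧ ¬ NC m₁ x ∧ ¬ NC m₂ x ∧ ¬ NC m₃ x ∧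
    (m₁ a x ≠ 0 ∨ m₂ b x ≠ 0 ∨ m₃ c x ≠ 0))
include F₃ O₁₃ O₂₃ hU

theorem pair3 (P : ∃ x, (NC m₁ x ∨ NC m₂ x) ∧ m₃ c x ≠ 0) : ∃ x x', x ≠ x' ∧
    ((NC m₁ x ∧ NC m₁ x') ∨ (NC m₂ x ∧ NC m₂ x')) ∧ ∀ y ∈ U, m₃ c y ≠ 0 →
      ∀ z, z ≠ o → ¬ NC m₃ z → m₃ c z ≠ 0 → z = x ∨ z = x' ∨ z = y := by
  obtain ⟨x, hx, h0⟩ := P
  obtain ⟨x', hne, hp, e⟩ : ∃ x', x ≠ x' ∧ ((NC m₁ x ∧ NC m₁ x') ∨ (NC m₂ x ∧ NC m₂ x')) ∧
      m₃ c x = m₃ c x' := by
    rcases hx with hx | hx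
    · obtain ⟨y, h1, h2, h3⟩ := F₁.partner' hx
      exact ⟨y, h1, Or.inl ⟨hx, h2⟩, h3 _ fun l => O₁₃ l c⟩
    · obtain ⟨y, h1, h2, h3⟩ := F₂.partner' hx
      exact ⟨y, h1, Or.inr ⟨hx, h2⟩, h3 _ fun l => O₂₃ l c⟩
  refine ⟨x, x', hne, hp, fun y hy y0 z zo zc z0 => ?_⟩
  by_contra hc
  simp only [not_or] at hc
  obtain ⟨yo, y1, y2, y3, -⟩ := (hU y).1 hy
  have k : ∀ w, NC m₁ w ∨ NC m₂ w → w ≠ o ∧ w ≠ y ∧ ¬ NC m₃ w := by
    rintro w (h | h)
    · exact ⟨fun c => F₁.not_nc (c ▸ h), fun c => y1 (c ▸ h), F₁.disj F₃ O₁₃ h⟩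
    · exact ⟨fun c => F₂.not_nc (c ▸ h), fun c => y2 (c ▸ h), F₂.disj F₃ O₂₃ h⟩
  obtain ⟨k1, k2, k3⟩ := k x hx
  obtain ⟨k4, k5, k6⟩ := k x' (by tauto)
  have := F₃.card_le {z, x, x', y} (by
    simp only [mem_insert, mem_singleton, not_or]
    exact ⟨zo.symm, k1.symm, k4.symm, yo.symm⟩) (by
    simp only [mem_insert, mem_singleton]
    rintro w (rfl | rfl | rfl | rfl) <;> assumption) c (by
    simp only [mem_insert, mem_singleton]
    rintro w (rfl | rfl | rfl | rfl)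
    exacts [z0, h0, e ▸ h0, y0])
  rw [card_insert_of_notMem (by simp [hc]), card_insert_of_notMem (by simp [hne, k2]),
    card_pair k5] at this
  norm_num at this

theorem chi (P : ¬ ∃ x, (NC m₁ x ∨ NC m₃ x) ∧ m₂ b x ≠ 0) :
    ∃ χ ∈ U, m₁ a χ * m₂ b χ = -1 ∧ ∀ y ∈ U, m₁ a y ≠ 0 → y = χ := by
  have h1 := F₁.card_le (U.filter fun y => m₁ a y ≠ 0)
    (fun h => ((hU o).1 (mem_filter.1 h).1).1 rfl)
    (fun x h => ((hU x).1 (mem_filter.1 h).1).2.1) a fun x h => (mem_filter.1 h).2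
  have h2 := F₁.orth_sub F₂ O₁₂ a b (U.filter fun y => m₁ a y ≠ 0)
    (fun h => ((hU o).1 (mem_filter.1 h).1).1 rfl) (fun x xo hx => by
      by_contra hc
      simp only [not_or] at hc
      refine hx (mem_filter.2 ⟨(hU x).2 ⟨xo, fun h => P ⟨x, Or.inl h, hc.2⟩,
        fun h => hc.1 (van F₁ F₂ O₁₂ h a), fun h => P ⟨x, Or.inr h, hc.2⟩, Or.inl hc.1⟩, hc.1⟩))
  have h3 : (U.filter fun y => m₁ a y ≠ 0).card ≤ 1 := by
    have : ((U.filter fun y => m₁ a y ≠ 0).card : ℤ) ≤ 1 := by linarith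
    exact_mod_cast this
  obtain ⟨χ, hχ⟩ : (U.filter fun y => m₁ a y ≠ 0).Nonempty := by
    rw [nonempty_iff_ne_empty]
    intro e
    rw [e] at h2
    simp at h2
  have h4 : (U.filter fun y => m₁ a y ≠ 0) = {χ} :=
    eq_singleton_iff_unique_mem.2 ⟨hχ, fun y hy => card_le_one.1 h3 _ hy _ hχ⟩
  rw [h4, sum_singleton] at h2
  exact ⟨χ, (mem_filter.1 hχ).1, h2, fun y hy y0 =>
    card_le_one.1 h3 _ (mem_filter.2 ⟨hy, y0⟩) _ hχ⟩

theorem three_of (h : ∀ y ∈ U, m₂ b y ≠ 0) : U.card ≤ 3 := by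
  have := F₂.card_le U (fun h => ((hU o).1 h).1 rfl) (fun x h => ((hU x).1 h).2.2.1) b h
  have : (U.card : ℤ) ≤ 3 := by linarith
  exact_mod_cast this

theorem caseA (P : ¬ ∃ x, (NC m₁ x ∨ NC m₃ x) ∧ m₂ b x ≠ 0)
    (Q : ∃ x, (NC m₁ x ∨ NC m₂ x) ∧ m₃ c x ≠ 0) : U.card ≤ 3 := by
  obtain ⟨χ, hχ, e, u⟩ := chi F₁ F₂ O₁₂ F₃ O₁₃ O₂₃ a b c hU P
  obtain ⟨x, x', hne, hp, k⟩ := pair3 F₁ F₂ O₁₂ F₃ O₁₃ O₂₃ a b c hU Q
  have k1 : ∀ y ∈ U, m₁ a y ≠ 0 → m₂ b y ≠ 0 := fun y hy h c0 => by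
    rw [← u y hy h, c0] at e
    simp at e
  refine three_of F₁ F₂ O₁₂ F₃ O₁₃ O₂₃ a b c hU fun y hy => ?_
  obtain ⟨yo, -, -, -, h | h | h⟩ := (hU y).1 hy
  · exact k1 y hy h
  · exact h
  rcases hp with hp | hp
  · have := F₂.orth_sub F₃ O₂₃ b c {y} (by simpa using yo.symm) fun z zo hz => by
      by_contra hc
      simp only [not_or] at hc
      rcases k y hy h z zo (fun h => P ⟨z, Or.inr h, hc.1⟩) hc.2 with rfl | rfl | rfl
      exacts [P ⟨_, Or.inl hp.1, hc.1⟩, P ⟨_, Or.inl hp.2, hc.1⟩, hz (mem_singleton_self _)]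
    intro c0
    simp [c0] at this
  · have := F₁.orth_sub F₃ O₁₃ a c {y} (by simpa using yo.symm) fun z zo hz => by
      by_contra hc
      simp only [not_or] at hc
      rcases k y hy h z zo (fun h => hc.1 (van F₁ F₃ O₁₃ h a)) hc.2 with rfl | rfl | rfl
      exacts [hc.1 (van F₁ F₂ O₁₂ hp.1 a), hc.1 (van F₁ F₂ O₁₂ hp.2 a), hz (mem_singleton_self _)]
    refine k1 y hy fun c0 => ?_
    simp [c0] at this

theorem card_U : U.card ≤ 3 := by
  have hU' : ∀ x, x ∈ U ↔ x ≠ o ∧ ¬ NC m₁ x ∧ ¬ NC m₃ x ∧ ¬ NC m₂ x ∧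
      (m₁ a x ≠ 0 ∨ m₃ c x ≠ 0 ∨ m₂ b x ≠ 0) := fun x => (hU x).trans (by tauto)
  have uo : o ∉ U := fun h => ((hU o).1 h).1 rfl
  by_cases P : ∃ x, (NC m₁ x ∨ NC m₃ x) ∧ m₂ b x ≠ 0 <;>
    by_cases Q : ∃ x, (NC m₁ x ∨ NC m₂ x) ∧ m₃ c x ≠ 0
  · obtain ⟨x, x', -, hp, k⟩ := pair3 F₁ F₂ O₁₂ F₃ O₁₃ O₂₃ a b c hU Q
    obtain ⟨w, w', -, hq, k'⟩ := pair3 F₁ F₃ O₁₃ F₂ O₁₂ O₂₃.symm a c b hU' P
    have h1 : (U.filter fun y => m₁ a y ≠ 0).card ≤ 1 := by
      have := F₁.card_le (U.filter fun y => m₁ a y ≠ 0) (fun h => uo (mem_filter.1 h).1)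
        (fun x h => ((hU x).1 (mem_filter.1 h).1).2.1) a fun x h => (mem_filter.1 h).2
      have : ((U.filter fun y => m₁ a y ≠ 0).card : ℤ) ≤ 1 := by linarith
      exact_mod_cast this
    have h2 : (U.filter fun y => m₂ b y ≠ 0).card ≤ 1 := card_le_one.2 fun y hy z hz => by
      obtain ⟨yo, y1, y2, y3, -⟩ := (hU y).1 (mem_filter.1 hy).1
      rcases k' z (mem_filter.1 hz).1 (mem_filter.1 hz).2 y yo y2 (mem_filter.1 hy).2
        with rfl | rfl | rfl
      · tauto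
      · tauto
      · rfl
    have h3 : (U.filter fun y => m₃ c y ≠ 0).card ≤ 1 := card_le_one.2 fun y hy z hz => by
      obtain ⟨yo, y1, y2, y3, -⟩ := (hU y).1 (mem_filter.1 hy).1
      rcases k z (mem_filter.1 hz).1 (mem_filter.1 hz).2 y yo y3 (mem_filter.1 hy).2
        with rfl | rfl | rfl
      · tauto
      · tauto
      · rfl
    have h4 : U ⊆ (U.filter fun y => m₁ a y ≠ 0) ∪ ((U.filter fun y => m₂ b y ≠ 0) ∪
        U.filter fun y => m₃ c y ≠ 0) := fun y hy => by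
      simp only [mem_union, mem_filter, hy, true_and]
      exact ((hU y).1 hy).2.2.2.2
    have h5 := (card_le_card h4).trans ((card_union_le _ _).trans
      (Nat.add_le_add_left (card_union_le _ _) _))
    omega
  · exact caseA F₁ F₃ O₁₃ F₂ O₁₂ O₂₃.symm a c b hU' Q P
  · exact caseA F₁ F₂ O₁₂ F₃ O₁₃ O₂₃ a b c hU P Q
  obtain ⟨χ, hχ, e, u⟩ := chi F₁ F₂ O₁₂ F₃ O₁₃ O₂₃ a b c hU P
  obtain ⟨χ', hχ', e', -⟩ := chi F₁ F₃ O₁₃ F₂ O₁₂ O₂₃.symm a c b hU' Q
  obtain rfl : χ' = χ := u _ hχ' fun c0 => by simp [c0] at e'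
  have s1 := F₂.orth_sub F₃ O₂₃ b c U uo fun z zo hz => by
    by_contra hc
    simp only [not_or] at hc
    exact hz ((hU z).2 ⟨zo, fun h => P ⟨z, Or.inl h, hc.1⟩, fun h => Q ⟨z, Or.inr h, hc.2⟩,
      fun h => P ⟨z, Or.inr h, hc.1⟩, Or.inr (Or.inl hc.1)⟩)
  have s2 := F₂.sq_le U uo (fun x h => ((hU x).1 h).2.2.1) b
  have s3 := F₃.sq_le U uo (fun x h => ((hU x).1 h).2.2.2.1) c
  have s4 : ∑ x ∈ U, (m₂ b x + m₃ c x) * (m₂ b x + m₃ c x) ≤ 4 := by
    have : ∀ x, (m₂ b x + m₃ c x) * (m₂ b x + m₃ c x) =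
        m₂ b x * m₂ b x + m₃ c x * m₃ c x + 2 * (m₂ b x * m₃ c x) := fun x => by ring
    simp only [this, sum_add_distrib, ← mul_sum, s1]
    linarith
  have s5 : (m₂ b χ' + m₃ c χ') * (m₂ b χ' + m₃ c χ') = 4 := by
    rcases Int.eq_one_or_neg_one_of_mul_eq_neg_one' e with ⟨p, q⟩ | ⟨p, q⟩ <;> rw [p] at e' <;>
      rw [q, show m₃ c χ' = m₂ b χ' by linarith, q] <;> norm_num
  refine three_of F₁ F₂ O₁₂ F₃ O₁₃ O₂₃ a b c hU fun y hy c0 => ?_
  have hne : y ≠ χ' := fun h => by simp [← h, c0] at e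
  have s6 := sum_le_sum_of_subset_of_nonneg (s := {y, χ'}) (t := U)
    (f := fun x => (m₂ b x + m₃ c x) * (m₂ b x + m₃ c x))
    (by simp [insert_subset_iff, hy, hχ]) fun _ _ _ => mul_self_nonneg _
  rw [sum_pair hne, s5, c0, zero_add] at s6
  have s7 : m₃ c y = 0 := by nlinarith
  obtain ⟨-, -, -, -, h | h | h⟩ := (hU y).1 hy
  exacts [hne (u y hy h), h c0, h s7]

omit hU in
theorem card_bound [Fintype Λ₁] [Fintype Λ₂] [Fintype Λ₃] : ∃ Z : Finset I,
    (∀ x ∈ Z, (∀ l, m₁ l x = 0) ∧ (∀ l, m₂ l x = 0) ∧ ∀ l, m₃ l x = 0) ∧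
    Fintype.card I ≤ Fintype.card Λ₁ + Fintype.card Λ₂ + Fintype.card Λ₃ + 4 + Z.card := by
  classical
  obtain ⟨a, -⟩ := F₁.two
  obtain ⟨b, -⟩ := F₂.two
  obtain ⟨c, -⟩ := F₃.two
  set U := univ.filter fun x => x ≠ o ∧ ¬ NC m₁ x ∧ ¬ NC m₂ x ∧ ¬ NC m₃ x ∧
    (m₁ a x ≠ 0 ∨ m₂ b x ≠ 0 ∨ m₃ c x ≠ 0) with hU
  have h0 := card_U F₁ F₂ O₁₂ F₃ O₁₃ O₂₃ a b c (U := U) fun x => by simp [hU]
  have h1 := F₁.card_nc (univ.filter (NC m₁)) fun x h => (mem_filter.1 h).2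
  have h2 := F₂.card_nc (univ.filter (NC m₂)) fun x h => (mem_filter.1 h).2
  have h3 := F₃.card_nc (univ.filter (NC m₃)) fun x h => (mem_filter.1 h).2
  refine ⟨univ.filter fun x => (∀ l, m₁ l x = 0) ∧ (∀ l, m₂ l x = 0) ∧ ∀ l, m₃ l x = 0,
    fun x h => (mem_filter.1 h).2, ?_⟩
  set Z := univ.filter fun x => (∀ l, m₁ l x = 0) ∧ (∀ l, m₂ l x = 0) ∧ ∀ l, m₃ l x = 0
  have h4 : univ ⊆ univ.filter (NC m₁) ∪ (univ.filter (NC m₂) ∪ (univ.filter (NC m₃) ∪
      ({o} ∪ (U ∪ Z)))) := fun x _ => by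
    simp only [mem_union, mem_filter, mem_univ, true_and, mem_singleton, hU, Z]
    by_contra hc
    simp only [not_or] at hc
    obtain ⟨n1, n2, n3, no, k, hz⟩ := hc
    have k' : m₁ a x = 0 ∧ m₂ b x = 0 ∧ m₃ c x = 0 := by tauto
    exact hz ⟨fun l => by_contra fun h => n1 ⟨l, a, by rwa [k'.1]⟩,
      fun l => by_contra fun h => n2 ⟨l, b, by rwa [k'.2.1]⟩,
      fun l => by_contra fun h => n3 ⟨l, c, by rwa [k'.2.2]⟩⟩
  have h5 := card_le_card h4
  have u1 := card_union_le (univ.filter (NC m₁)) (univ.filter (NC m₂) ∪ (univ.filter (NC m₃) ∪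
      ({o} ∪ (U ∪ Z))))
  have u2 := card_union_le (univ.filter (NC m₂)) (univ.filter (NC m₃) ∪ ({o} ∪ (U ∪ Z)))
  have u3 := card_union_le (univ.filter (NC m₃)) ({o} ∪ (U ∪ Z))
  have u4 := card_union_le {o} (U ∪ Z)
  have u5 := card_union_le U Z
  rw [card_singleton] at u4
  rw [card_univ] at h5
  omega

end Three

end Cfsg.Agent.SCS
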