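import Cfsg.Agent.SCS.Base

/-! Small lemmas on `{2,3}`-groups. -/

set_option autoImplicit false
set_option linter.unusedSectionVars false

namespace Cfsg.Agent.SCS

open Cfsg Cfsg.Agent.H49 Subgroup

theorem pow_not8 {k : ℕ} : ¬ 8 ∣ 3 ^ k + 1 := by
  have : 3 ^ k % 8 = 1 ∨ 3 ^ k % 8 = 3 := by
    induction k with
    | zero => simp
    | succ n ih => rw [pow_succ]; omega
  omega

theorem pow3_of {n : ℕ} (h : IsPiNat {2, 3} n) (h2 : IsPiNat {2}ᶜ n) (n0 : n ≠ 0) :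
    ∃ k, n = 3 ^ k :=
  (isPiNat_singleton Nat.prime_three n0).1 fun p hp d => (h p hp d).resolve_left (h2 p hp d)

theorem pi2_of {n : ℕ} (h : IsPiNat {2, 3} n) (h2 : IsPiNat {3}ᶜ n) : IsPiNat {2} n :=
  fun p hp d => (h p hp d).resolve_right (h2 p hp d)

theorem pi3_of {n : ℕ} (h : IsPiNat {2, 3} n) (h2 : IsPiNat {2}ᶜ n) : IsPiNat {3} n :=
  fun p hp d => (h p hp d).resolve_left (h2 p hp d)

variable {G : Type*} [Group G]

theorem isConj_mk {H : Subgroup G} {u v : H} : IsConj u v ↔ (v : G) ∈ orb H u := by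
  rw [isConj_iff]
  exact ⟨fun ⟨c, e⟩ => ⟨c, c.2, by rw [← e]; rfl⟩, fun ⟨c, hc, e⟩ => ⟨⟨c, hc⟩, Subtype.ext e.symm⟩⟩

theorem ord2 {x : G} : orderOf x = 2 ↔ x * x = 1 ∧ x ≠ 1 :=
  ⟨fun h => ⟨by rw [← pow_two, ← h, pow_orderOf_eq_one], fun e => by simp [e] at h⟩,
    fun h => orderOf_eq_prime (by rw [pow_two, h.1]) h.2⟩

theorem ord4 {x : G} : orderOf x = 4 ↔ x * x * (x * x) = 1 ∧ x * x ≠ 1 := by
  have e : x ^ 4 = x * x * (x * x) := by simp only [pow_succ, pow_zero, one_mul, mul_assoc]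
  constructor
  · intro h
    refine ⟨by rw [← e, ← h, pow_orderOf_eq_one], fun c => ?_⟩
    have := orderOf_dvd_of_pow_eq_one (show x ^ 2 = 1 by rwa [pow_two])
    rw [h] at this
    omega
  · intro h
    exact orderOf_eq_prime_pow (p := 2) (n := 1) (by simpa [pow_two] using h.2) (e.trans h.1)

variable [Finite G]

theorem orb3 {H E : Subgroup G} {u : G} (h : IsPi {2, 3} H) (hE : IsSylowOf 2 E H) (c : E ≤ 𝒞[u]) :
    ∃ k, (orb H u).ncard = 3 ^ k := by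
  rw [card_orb]
  exact pow3_of (h.relIndex _) (hE.index_of_le c) (relIndex_pos _ _).ne'

theorem ea (h : IsPiNat {2, 3} (Nat.card G)) (h4 : ∀ x : G, orderOf x ≠ 4)
    (h3 : ∀ u v w : G, orderOf u = 2 → orderOf v = 2 → orderOf w = 2 →
      IsConj u v ∨ IsConj u w ∨ IsConj v w) :
    ¬ 8 ∣ Nat.card G ∧ ∀ u v : G, orderOf u = 2 → orderOf v = 2 → IsConj u v := by
  have : Fact (Nat.Prime 2) := ⟨Nat.prime_two⟩
  obtain ⟨E⟩ : Nonempty (Sylow 2 G) := inferInstance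
  have hE := sylowOf_top Nat.prime_two E
  have sq : ∀ x ∈ (E : Subgroup G), x * x = 1 := fun x hx => by
    obtain ⟨k, hk⟩ := (IsPGroup.iff_orderOf.1 E.isPGroup') ⟨x, hx⟩
    rw [← orderOf_coe] at hk
    by_contra c
    have : 4 ∣ orderOf x := by
      rcases k with _ | _ | k
      · exact absurd (by rw [show x = 1 from orderOf_eq_one_iff.1 hk, one_mul]) c
      · exact absurd (ord2.1 hk).1 c
      · exact ⟨2 ^ k, by rw [show orderOf x = _ from hk]; ring⟩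
    exact h4 _ (orderOf_pow_orderOf_div (orderOf_pos x).ne' this)
  have ab : ∀ x ∈ (E : Subgroup G), ∀ y ∈ (E : Subgroup G), x * y = y * x := fun x hx y hy => by
    rw [← inv_eq_of_mul_eq_one_right (sq _ (mul_mem hx hy)), mul_inv_rev,
      inv_eq_of_mul_eq_one_right (sq x hx), inv_eq_of_mul_eq_one_right (sq y hy)]
  have : IsMulCommutative (E : Subgroup G) := abelian_iff.2 fun x hx y hy => ab y hy x hx
  have fu : ∀ x ∈ (E : Subgroup G), ∀ y ∈ (E : Subgroup G), IsConj x y →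
      y ∈ orb 𝒩((E : Subgroup G)) x := fun x hx y hy c => by
    obtain ⟨g, rfl⟩ := isConj_iff.1 c
    obtain ⟨n, hn, e⟩ := E.conj_eq_normalizer_conj_of_mem x g⁻¹ hx (by rw [inv_inv]; exact hy)
    exact ⟨n⁻¹, inv_mem hn, by simpa using e⟩
  have hN : IsPi {2, 3} 𝒩((E : Subgroup G)) := h.of_dvd (card_subgroup_dvd_card _)
  have o3 : ∀ x ∈ (E : Subgroup G), ∃ k, (orb 𝒩((E : Subgroup G)) x).ncard = 3 ^ k :=
    fun x hx => orb3 hN (hE.sub le_normalizer le_top) fun y hy => mem_cent1.2 (ab y hy x hx)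
  have sub : ∀ x ∈ (E : Subgroup G), x ≠ 1 → orb 𝒩((E : Subgroup G)) x ⊆ ((E : Subgroup G) : Set G) \ {1} := by
    rintro x hx x1 _ ⟨n, hn, rfl⟩
    exact ⟨conj_mem_of_norm le_rfl hn hx, fun e => x1 (by simpa using e)⟩
  have cE : (((E : Subgroup G) : Set G) \ {1}).ncard + 1 = Nat.card (E : Subgroup G) :=
    Set.ncard_sdiff_singleton_add_one (E : Subgroup G).one_mem (Set.toFinite _)
  have key : ∀ x ∈ (E : Subgroup G), x ≠ 1 →
      orb 𝒩((E : Subgroup G)) x = ((E : Subgroup G) : Set G) \ {1} := fun x hx x1 => by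
    refine (sub x hx x1).antisymm fun y hy => by_contra fun c => ?_
    have e : ((E : Subgroup G) : Set G) \ {1} =
        orb 𝒩((E : Subgroup G)) x ∪ orb 𝒩((E : Subgroup G)) y := by
      refine Set.Subset.antisymm (fun z hz => ?_) (Set.union_subset (sub x hx x1) (sub y hy.1 hy.2))
      rcases h3 x y z (ord2.2 ⟨sq x hx, x1⟩) (ord2.2 ⟨sq y hy.1, hy.2⟩) (ord2.2 ⟨sq z hz.1, hz.2⟩)
        with k | k | k
      exacts [absurd (fu x hx y hy.1 k) c, Or.inl (fu x hx z hz.1 k), Or.inr (fu y hy.1 z hz.1 k)]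
    obtain ⟨a, ha⟩ := o3 x hx
    obtain ⟨b, hb⟩ := o3 y hy.1
    rw [e, Set.ncard_union_eq (Set.disjoint_left.2 fun z p q => c (orb_trans p (orb_symm q))), ha,
      hb] at cE
    have d := hE.pi.dvd_card (ne_bot_iff_exists.2 ⟨x, hx, x1⟩)
    have o1 := Nat.odd_iff.1 (Odd.pow (n := a) (show Odd 3 by decide))
    have o2 := Nat.odd_iff.1 (Odd.pow (n := b) (show Odd 3 by decide))
    omega
  refine ⟨fun c => ?_, fun u v hu hv => ?_⟩
  · have e := card_mul_relIndex hE.le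
    rw [card_top] at e
    have d : 2 ^ 3 ∣ Nat.card (E : Subgroup G) :=
      (isPiNat_singleton_pow Nat.prime_two 3).dvd_of_dvd_mul_right hE.index (e ▸ c)
    obtain ⟨x, hx, o⟩ := exists_orderOf_eq_of_dvd_card Nat.prime_two
      ((by norm_num : 2 ∣ 2 ^ 3).trans d)
    obtain ⟨k, hk⟩ := o3 x hx
    rw [← cE, ← key x hx (ord2.1 o).2, hk] at d
    exact pow_not8 d
  · have k : ∀ u : G, orderOf u = 2 → ∃ x ∈ (E : Subgroup G), x ≠ 1 ∧ IsConj u x := fun u hu => by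
      obtain ⟨g, -, hg⟩ := sylowOf_subJ hE (X := zpowers u) le_top
        (isPi_of_card_eq_prime Nat.prime_two (by rw [Nat.card_zpowers, hu]))
      exact ⟨_, hg (conj_mem_cj.2 (mem_zpowers u)), fun e => (ord2.1 hu).2 (by simpa using e),
        isConj_iff.2 ⟨g, rfl⟩⟩
    obtain ⟨x, hx, x1, c1⟩ := k u hu
    obtain ⟨y, hy, y1, c2⟩ := k v hv
    obtain ⟨n, -, e⟩ : y ∈ orb 𝒩((E : Subgroup G)) x := by rw [key x hx x1]; exact ⟨hy, y1⟩
    exact (c1.trans (isConj_iff.2 ⟨n, e.symm⟩)).trans c2.symm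

theorem ea' {H : Subgroup G} (h : IsPi {2, 3} H) (h4 : ∀ x ∈ H, orderOf x ≠ 4)
    (h3 : ∀ u ∈ H, ∀ v ∈ H, ∀ w ∈ H, orderOf u = 2 → orderOf v = 2 → orderOf w = 2 →
      v ∈ orb H u ∨ w ∈ orb H u ∨ w ∈ orb H v) :
    ¬ 8 ∣ Nat.card H ∧ ∀ u ∈ H, ∀ v ∈ H, orderOf u = 2 → orderOf v = 2 → v ∈ orb H u := by
  obtain ⟨a, b⟩ := ea (G := H) h (fun x => by rw [← orderOf_coe]; exact h4 x x.2)
    fun u v w hu hv hw => by
      simp only [isConj_mk]
      exact h3 u u.2 v v.2 w w.2 (by rwa [orderOf_coe]) (by rwa [orderOf_coe]) (by rwa [orderOf_coe])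
  exact ⟨a, fun u hu v hv p q => (isConj_mk (u := ⟨u, hu⟩) (v := ⟨v, hv⟩)).1
    (b _ _ (by rwa [orderOf_mk]) (by rwa [orderOf_mk]))⟩

theorem normal3 {H W : Subgroup G} (hs : Group.IsSolvable H) (h : IsPi {2, 3} H)
    (hW : IsSylowOf 3 W H) (ab : IsMulCommutative W) (c : W ≤ 𝒞(piCoreOf {2} H)) : H ≤ 𝒩(W) := by
  have nF := fittingOf_nil H
  have h1 : piCoreOf {2}ᶜ (fittingOf H) ≤ W := hW.normal_le
    ((piCoreOf_le _ _).trans (fittingOf_le H)) (norm_piCoreOf _ (le_norm_fittingOf H))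
    (pi3_of (h.of_le ((piCoreOf_le _ _).trans (fittingOf_le H))) (piCoreOf_pi _ _))
  have h2 : W ≤ 𝒞(fittingOf H) := by
    rw [← (nilpotent_isDp nF {2}).1, cent_sup, pcore_fittingOf]
    exact le_inf c (le_cent_of_abelian ab le_rfl h1)
  have h3 : W ≤ piCoreOf {3} H := by
    rw [← pcore_fittingOf]
    exact nilpotent_le_piCoreOf nF ((le_inf hW.le h2).trans (cent_fittingOf_le hs)) hW.pi
  rw [le_antisymm h3 hW.piCoreOf_le]
  exact le_norm_piCoreOf _ _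

theorem not_all_conj {S : Subgroup G} (hS : Group.IsNilpotent S) {f : G} (hf : f ∈ S)
    (o : orderOf f = 4) (h : ∀ y ∈ S, y = 1 ∨ y ∈ orb S f ∨ y ∈ orb S (f * f)) : False := by
  have e : zpowers (⟨f, hf⟩ : S) = ⊤ := by
    by_contra c
    obtain ⟨M, hM, l⟩ := (eq_top_or_exists_le_coatom (zpowers (⟨f, hf⟩ : S))).resolve_left c
    have n : M.Normal := NormalizerCondition.normal_of_coatom _
      Group.normalizerCondition_of_isNilpotent hM
    have fM := l (mem_zpowers _)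
    refine hM.1 (eq_top_iff.2 fun y _ => ?_)
    rcases h y y.2 with k | k | k
    · rw [show y = 1 from Subtype.ext k]; exact M.one_mem
    · obtain ⟨g, rfl⟩ := isConj_iff.1 ((isConj_mk (u := ⟨f, hf⟩)).2 k)
      exact n.conj_mem _ fM _
    · obtain ⟨g, rfl⟩ := isConj_iff.1 ((isConj_mk (u := ⟨f, hf⟩ * ⟨f, hf⟩)).2 k)
      exact n.conj_mem _ (M.mul_mem fM fM) _
  obtain ⟨o1, o2⟩ := ord4.1 o
  rcases h _ (S.inv_mem hf) with k | ⟨g, hg, k⟩ | ⟨g, hg, k⟩
  · exact o2 (by simp [inv_eq_one.1 k])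
  · obtain ⟨i, hi⟩ := mem_zpowers_iff.1 (e ▸ mem_top (⟨g, hg⟩ : S))
    have : f ^ i = g := congrArg Subtype.val hi
    rw [← this, (Commute.zpow_self f i).eq, mul_inv_cancel_right] at k
    exact o2 (by nth_rewrite 1 [← k]; simp)
  · have := orderOf_conj' g (f * f)
    rw [← k, orderOf_inv, o, ord2.2 ⟨o1, o2⟩] at this
    omega

theorem prod_equiv {K L H : Subgroup G} (hK : K ≤ H) (hL : L ≤ H) (c : K ≤ 𝒞(L)) (d : K ⊓ L = ⊥)
    (e : Nat.card K * Nat.card L = Nat.card H) : Nonempty (H ≃* K × L) := by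
  let φ : K × L →* H := (inclusion hK).noncommCoprod (inclusion hL)
    fun a b => Subtype.ext (c a.2 b b.2).symm
  have hi : Function.Injective φ := (injective_iff_map_eq_one φ).2 fun x hx => by
    have e1 : (x.1 : G) * x.2 = 1 := congrArg Subtype.val hx
    have e2 : (x.1 : G) ∈ K ⊓ L := ⟨x.1.2, eq_inv_of_mul_eq_one_left e1 ▸ L.inv_mem x.2.2⟩
    rw [d, mem_bot] at e2
    exact Prod.ext (Subtype.ext e2) (Subtype.ext (by simpa [e2] using e1))
  exact ⟨(MulEquiv.ofBijective φ (hi.bijective_of_nat_card_le (by rw [Nat.card_prod, e]))).symm⟩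

end Cfsg.Agent.SCS
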