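import Cfsg.Agent.H5.Eigen
import Cfsg.Agent.H10.Isotropic

/-! An element of order four acting freely on an abelian group needs dimension four. -/

set_option autoImplicit false

namespace Cfsg.Agent.SCS

open Module

theorem exists_sep {K ι : Type*} [Field K] [Infinite K] [Fintype ι] (p q : ι → K)
    (h : ∀ i j, p i = p j → q i = q j → i = j) : ∃ c : K, Function.Injective fun i => p i + c * q i := by
  classical
  obtain ⟨c, hc⟩ := Infinite.exists_notMem_finset
    (Finset.univ.image fun x : ι × ι => (p x.2 - p x.1) / (q x.1 - q x.2))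
  refine ⟨c, fun i j e => ?_⟩
  by_cases k : q i = q j
  · exact h i j (by simpa [k] using e) k
  · refine absurd (Finset.mem_image.2 ⟨(i, j), Finset.mem_univ _, ?_⟩) hc
    rw [div_eq_iff (sub_ne_zero.2 k)]
    simp only at e ⊢
    linear_combination -e

theorem four_le {K V H : Type*} [Field K] [IsAlgClosed K] [AddCommGroup V] [Module K V]
    [FiniteDimensional K V] [Group H] (σ : H →* End K V) {a b f : H} {r : ℕ} (hr : Odd r)
    (hK : (r : K) ≠ 0) (ha : a ^ r = 1) (a1 : σ a ≠ 1) (h1 : f * a * f⁻¹ = b)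
    (h2 : f * b * f⁻¹ = a⁻¹) (hc : a * b = b * a) : 4 ≤ finrank K V := by
  obtain ⟨B, μ, hB, hμ⟩ := H5.exists_eigenbasis_of_pow_eq_one (σ a) r hK (by rw [← map_pow, ha, map_one])
  obtain ⟨i, hi⟩ : ∃ i, μ i ≠ 1 := by
    by_contra c
    push Not at c
    exact a1 (B.ext fun i => by rw [hB, c]; simp)
  have hm : ∀ x ∈ (σ a).eigenspace (μ i), σ b x ∈ (σ a).eigenspace (μ i) := fun x hx => by
    rw [End.mem_eigenspace_iff] at hx ⊢
    rw [← End.mul_apply, ← map_mul, hc, map_mul, End.mul_apply, hx, map_smul]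
  have : Nontrivial ((σ a).eigenspace (μ i)) :=
    ⟨⟨⟨B i, End.mem_eigenspace_iff.2 (hB i)⟩, 0, fun e => B.ne_zero i (congrArg Subtype.val e)⟩⟩
  obtain ⟨ν, hν⟩ := End.exists_eigenvalue ((σ b).restrict hm)
  obtain ⟨w, hw⟩ := hν.exists_hasEigenvector
  have inj : ∀ (g : H) (v : V), σ g v = 0 → v = 0 := fun g v e => by
    rw [← End.one_apply (R := K) v, ← map_one σ, ← inv_mul_cancel g, map_mul, End.mul_apply, e,
      map_zero]
  have step : ∀ (v : V) (x y : K), v ≠ 0 ∧ σ a v = x • v ∧ σ b v = y • v →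
      σ f v ≠ 0 ∧ σ a (σ f v) = y⁻¹ • σ f v ∧ σ b (σ f v) = x • σ f v := by
    rintro v x y ⟨v0, e1, e2⟩
    have y0 : y ≠ 0 := fun c => v0 (inj b v (by rw [e2, c, zero_smul]))
    refine ⟨fun c => v0 (inj f v c), ?_, ?_⟩
    · have : a * (f * b) = f := by rw [mul_inv_eq_iff_eq_mul.1 h2, mul_inv_cancel_left]
      have e : σ a (σ f (σ b v)) = σ f v := by
        rw [← End.mul_apply, ← End.mul_apply, ← map_mul, ← map_mul, mul_assoc, this]
      rw [e2, map_smul, map_smul] at e
      rw [← e, smul_smul, inv_mul_cancel₀ y0, one_smul, e]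
    · rw [← End.mul_apply, ← map_mul, ← mul_inv_eq_iff_eq_mul.1 h1, map_mul, End.mul_apply, e1,
        map_smul]
  have s0 : (w : V) ≠ 0 ∧ σ a w = μ i • (w : V) ∧ σ b w = ν • (w : V) :=
    ⟨fun e => hw.2 (Subtype.ext e), End.mem_eigenspace_iff.1 w.2,
      congrArg Subtype.val hw.apply_eq_smul⟩
  have s1 := step _ _ _ s0
  have s2 := step _ _ _ s1
  have s3 := step _ _ _ s2
  rw [inv_inv] at s3
  have k : μ i ≠ (μ i)⁻¹ := fun e => hi (by
    obtain ⟨n, rfl⟩ := hr
    have m0 : μ i ≠ 0 := fun c => by simpa [c] using hμ i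
    have := hμ i
    have e' : μ i * μ i = 1 := by
      nth_rewrite 2 [e]
      exact mul_inv_cancel₀ m0
    rwa [pow_succ, pow_mul, pow_two, e', one_pow, one_mul] at this)
  obtain ⟨c, hc⟩ := exists_sep ![μ i, ν⁻¹, (μ i)⁻¹, ν] ![ν, μ i, ν⁻¹, (μ i)⁻¹] (by
    intro x y e1 e2
    fin_cases x <;> fin_cases y <;> first
      | rfl
      | exact absurd e1 k
      | exact absurd e2 k
      | exact absurd e1.symm k
      | exact absurd e2.symm k
      | (exfalso
         simp only [Fin.reduceFinMk, Fin.zero_eta, Fin.mk_one, Matrix.cons_val_zero,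
           Matrix.cons_val_one, Matrix.cons_val, inv_inj] at e1 e2
         first
          | exact k (e1.trans (by rw [e2]))
          | exact k (e1.symm.trans (by rw [← e2]))
          | exact k (e1.trans e2)
          | exact k (e1.symm.trans e2.symm)
          | exact k (e2.trans (by rw [e1]))
          | exact k (e2.symm.trans (by rw [e1]))
          | exact k (e2.symm.trans e1.symm)
          | exact k (e2.trans e1)))
  have := (End.eigenvectors_linearIndependent' (σ a + c • σ b) _ hc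
    ![(w : V), σ f w, σ f (σ f w), σ f (σ f (σ f w))] (by
      intro x
      rw [End.hasEigenvector_iff, End.mem_eigenspace_iff]
      fin_cases x
      · exact ⟨by simp [s0.2, add_smul, smul_smul], s0.1⟩
      · exact ⟨by simp [s1.2, add_smul, smul_smul], s1.1⟩
      · exact ⟨by simp [s2.2, add_smul, smul_smul], s2.1⟩
      · exact ⟨by simp [s3.2, add_smul, smul_smul], s3.1⟩)).fintype_card_le_finrank
  simpa using this

variable {G : Type*} [Group G]

/-- an element of order `r` and an element of order four acting freely -/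
def Q4 (G : Type*) [Group G] (r : ℕ) : Prop :=
  ∃ a f : G, orderOf a = r ∧ f * (f * a * f⁻¹) * f⁻¹ = a⁻¹ ∧ a * (f * a * f⁻¹) = f * a * f⁻¹ * a

theorem no_lift {H F : Type*} [Group H] [Field F] {d r : ℕ} (ρ : H →* Matrix (Fin d) (Fin d) F)
    (hρ : Function.Injective ρ) (hd : d ≤ 3) (hz : ∀ z ∈ Subgroup.center H, z ^ d = 1)
    (e : G ≃* H ⧸ Subgroup.center H) (hr : r.Prime) (r2 : r ≠ 2) (hrd : d.Coprime r)
    (hF : (r : F) ≠ 0) : ¬ Q4 G r := by
  rintro ⟨a, f, ha, h1, h2⟩
  let π : H →* G := e.symm.toMonoidHom.comp (QuotientGroup.mk' _)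
  have hs : Function.Surjective π := e.symm.surjective.comp (QuotientGroup.mk'_surjective _)
  have hk : ∀ z, π z = 1 → z ∈ Subgroup.center H := fun z c =>
    (QuotientGroup.eq_one_iff z).1 (e.symm.map_eq_one_iff.1 c)
  have ar : a ^ r = 1 := ha ▸ pow_orderOf_eq_one a
  have un : ∀ x y : H, x ^ r = 1 → y ^ r = 1 → π x = π y → x = y := fun x y hx hy c => by
    have z := hk (x⁻¹ * y) (by rw [map_mul, map_inv, c, inv_mul_cancel])
    have cm : Commute x (x⁻¹ * y) := Subgroup.mem_center_iff.1 z x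
    have := cm.mul_pow r
    rw [mul_inv_cancel_left, hx, hy, one_mul] at this
    exact inv_mul_eq_one.1 ((pow_eq_one_iff_of_coprime hrd).1 ⟨hz _ z, this.symm⟩)
  obtain ⟨x₀, hx₀⟩ := hs a
  obtain ⟨g, hg⟩ := hs f
  obtain ⟨m, -, hm⟩ := Nat.exists_mul_mod_eq_one_of_coprime hrd hr.one_lt
  have x1 : π (x₀ ^ (d * m)) = a := by
    rw [map_pow, hx₀, ← pow_mod_orderOf, ha, hm, pow_one]
  have x2 : (x₀ ^ (d * m)) ^ r = 1 := by
    rw [← pow_mul, mul_comm, pow_mul, pow_mul, hz _ (hk _ (by rw [map_pow, hx₀, ar])), one_pow]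
  generalize x₀ ^ (d * m) = x at x1 x2
  have y2 : (g * x * g⁻¹) ^ r = 1 := by rw [conj_pow, x2]; simp
  let K := AlgebraicClosure F
  let σ : H →* End K (Fin d → K) := ((Matrix.toLinAlgEquiv' (R := K) (n := Fin d)).toRingEquiv.toRingHom.comp
    (algebraMap F K).mapMatrix).toMonoidHom.comp ρ
  have hσ : Function.Injective σ := (Matrix.toLinAlgEquiv' (R := K) (n := Fin d)).injective.comp
    ((Matrix.map_injective (algebraMap F K).injective).comp hρ)
  have := four_le σ (a := x) (f := g) (hr.odd_of_ne_two r2)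
    (by rwa [← map_natCast (algebraMap F K), map_ne_zero]) x2
    (fun c => hr.one_lt.ne' (by rw [← ha, ← x1, hσ (c.trans (map_one σ).symm), map_one, orderOf_one]))
    rfl (un _ _ (by rw [conj_pow, y2]; simp) (by rw [inv_pow, x2, inv_one]) (by simp [x1, hg, h1]))
    (mul_inv_eq_iff_eq_mul.1 (un _ _ (by rw [conj_pow, y2]; simp) y2 (by
      simp only [map_mul, map_inv, x1, hg, h2, mul_inv_cancel_right])))
  rw [finrank_fin_fun] at this
  omega

theorem no_psl {F : Type*} [Field F] {d r : ℕ} (hd : d ≤ 3)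
    (e : G ≃* Matrix.ProjectiveSpecialLinearGroup (Fin d) F) (hr : r.Prime) (r2 : r ≠ 2)
    (hrd : d.Coprime r) (hF : (r : F) ≠ 0) : ¬ Q4 G r := by
  refine no_lift (Matrix.SpecialLinearGroup.coeMonoidHom) Subtype.val_injective hd (fun z hz => ?_) e
    hr r2 hrd hF
  obtain ⟨c, h1, h2⟩ := Matrix.SpecialLinearGroup.mem_center_iff.1 hz
  rw [Fintype.card_fin] at h1
  exact Subtype.ext (by rw [Matrix.SpecialLinearGroup.coe_pow, ← h2, ← map_pow, h1, map_one]; rfl)

theorem no_psu {F : Type*} [Field F] [Fintype F] {q r : ℕ} (hq : Fintype.card F = q ^ 2)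
    (e : G ≃* Cfsg.PSU 3 F q) (hr : r.Prime) (r2 : r ≠ 2)
    (hrd : (3 : ℕ).Coprime r) (hF : (r : F) ≠ 0) : ¬ Q4 G r := by
  have : Fact (Fintype.card F = q ^ 2) := ⟨hq⟩
  let ρ : Cfsg.SU 3 F q →* Matrix (Fin 3) (Fin 3) F :=
    { toFun := H10.sm, map_one' := rfl, map_mul' := fun _ _ => rfl }
  refine no_lift ρ H10.sm_injective le_rfl (fun z hz => H10.sm_injective ?_) e hr r2 hrd hF
  obtain ⟨c, h1⟩ := (H10.mem_center_SU_iff (by omega) z).1 hz
  have h2 : (H10.sm z).det = 1 := z.1.2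
  rw [h1, Matrix.det_smul, Matrix.det_one, mul_one, Fintype.card_fin] at h2
  have h3 : ρ z = c • 1 := h1
  show ρ (z ^ 3) = ρ 1
  rw [map_pow, h3, smul_pow, h2, one_pow, one_smul, map_one]

end Cfsg.Agent.SCS
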