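import Cfsg.Agent.SCS.Grp
import Cfsg.Agent.SCS.Cnt
import Cfsg.Agent.H5.Burnside

/-! The case of an element of order six: set-up and elements of order twelve. -/

set_option autoImplicit false
set_option linter.unusedSectionVars false

namespace Cfsg.Agent.SCS

open Cfsg Cfsg.Agent.H49 Subgroup

variable {G : Type*} [Group G]

theorem PW.ins [DecidableEq G] {S : Finset G} (hS : PW S) {a : G} (h : ∀ y ∈ S, ¬ IsConj y a) :
    PW (insert a S) ∧ (insert a S).card = S.card + 1 := by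
  refine ⟨fun x hx y hy c => ?_, Finset.card_insert_of_notMem fun c => h a c (IsConj.refl a)⟩
  rcases Finset.mem_insert.1 hx with rfl | hx' <;> rcases Finset.mem_insert.1 hy with rfl | hy'
  exacts [rfl, absurd c.symm (h y hy'), absurd c (h x hx'), hS x hx' y hy' c]

theorem ord_mul {x y : G} (c : x * y = y * x) {a b : ℕ} (ha : orderOf x = a) (hb : orderOf y = b)
    (h : a.Coprime b) : orderOf (x * y) = a * b := by
  subst ha hb
  exact (show Commute x y from c).orderOf_mul_eq_mul_orderOf_of_coprime h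

theorem pi23 {g : G} {n : ℕ} (h : orderOf g ∣ 6 ^ n) : IsPiElt {2, 3} g := fun p hp d => by
  have := (Nat.Prime.dvd_mul hp).1 (hp.dvd_of_dvd_pow (n := n) (m := 2 * 3) (d.trans h))
  exact this.imp (Nat.prime_dvd_prime_iff_eq hp Nat.prime_two).1
    (Nat.prime_dvd_prime_iff_eq hp Nat.prime_three).1

theorem fus {s x y : G} (hs : orderOf s = 3) (hx : x ∈ 𝒞[s]) (hy : y ∈ 𝒞[s]) (x4 : x ^ 4 = 1)
    (y4 : y ^ 4 = 1) (c : IsConj (x * s) (y * s)) : y ∈ orb 𝒞[s] x := by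
  have s3 : s ^ 3 = 1 := hs ▸ pow_orderOf_eq_one s
  have k : ∀ w ∈ 𝒞[s], w ^ 4 = 1 → (w * s) ^ 4 = s ∧ (w * s) ^ 9 = w := fun w hw w4 => by
    have c : Commute w s := mem_cent1.1 hw
    rw [c.mul_pow, c.mul_pow, w4, pow_succ s 3, show 9 = 4 * 2 + 1 from rfl, pow_succ w, pow_mul, w4,
      show 4 * 2 + 1 = 3 * 3 from rfl, pow_mul, s3]
    simp
  obtain ⟨g, e⟩ := isConj_iff.1 c
  have e1 := congrArg (· ^ 4) e
  have e2 := congrArg (· ^ 9) e
  simp only [conj_pow, k x hx x4, k y hy y4] at e1 e2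
  exact ⟨g, mem_cent1.2 (mul_inv_eq_iff_eq_mul.1 e1), e2.symm⟩

theorem dvd_ncard {Z : Subgroup G} {s : Set G} (h : ∀ x ∈ s, ∀ z ∈ Z, x * z ∈ s) :
    Nat.card Z ∣ s.ncard := by
  have e : s = QuotientGroup.mk ⁻¹' ((QuotientGroup.mk : G → G ⧸ Z) '' s) := by
    refine (Set.subset_preimage_image _ _).antisymm ?_
    rintro y ⟨x, hx, e⟩
    simpa using h x hx _ (QuotientGroup.eq.1 e)
  rw [← Nat.card_coe_set_eq, e, QuotientGroup.card_preimage_mk]
  exact dvd_mul_right _ _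

structure PB (R : G → Prop) (t f s : G) : Prop where
  ot : orderOf t = 2
  of : orderOf f = 4
  os : orderOf s = 3
  ts : t * s = s * t
  inv : ∀ u, orderOf u = 2 → IsConj u t
  r23 : ∀ g, IsPiElt {2, 3} g → R g
  rc : ∀ x y, R x → x ≠ 1 → x * y = y * x → R y
  cl : ∀ S : Finset G, PW S → (∀ x ∈ S, R x) →
    S.card ≤ 6 ∧ ∑ x ∈ S, (1 / Nat.card 𝒞[x] : ℚ) < 1 / 6
  ab3 : ∀ T : Subgroup G, IsSylowOf 3 T ⊤ → IsMulCommutative T
  big : (∀ g, R g → g ^ 12 = 1) → ∀ S : Finset G, PW S → (∀ x ∈ S, R x) → 5 ≤ S.card →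
    ∀ T : Subgroup G, IsSylowOf 3 T ⊤ → ¬ T ≤ 𝒞[t]
  nn : ¬ HasNormalPComplement 2 𝒞[t]

/-- not in one of the five obvious classes -/
def New (t f s a : G) : Prop :=
  ¬ IsConj 1 a ∧ ¬ IsConj t a ∧ ¬ IsConj f a ∧ ¬ IsConj s a ∧ ¬ IsConj (t * s) a

variable [Finite G]

theorem solv23 {H : Subgroup G} (h : IsPi {2, 3} H) : Group.IsSolvable H := by
  obtain ⟨a, b, e, ha, hb⟩ := exists_pi_factor {2} (card_pos' H).ne'
  have n0 := (card_pos' H).ne'
  rw [e] at n0
  obtain ⟨i, rfl⟩ := (isPiNat_singleton Nat.prime_two (left_ne_zero_of_mul n0)).1 ha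
  obtain ⟨j, rfl⟩ := pow3_of (IsPiNat.of_dvd h (e ▸ dvd_mul_left _ _)) hb (right_ne_zero_of_mul n0)
  exact H5.isSolvable_of_card_dvd_prime_pow_mul Nat.prime_two Nat.prime_three e.dvd

namespace PB

variable {R : G → Prop} {t f s : G} (h : PB R t f s)
include h

theorem o6 : orderOf (t * s) = 6 := ord_mul h.ts h.ot h.os (by norm_num)

theorem five [DecidableEq G] : PW ({t * s, s, f, t, 1} : Finset G) ∧
    ({t * s, s, f, t, 1} : Finset G).card = 5 ∧ ∀ x ∈ ({t * s, s, f, t, 1} : Finset G), R x := by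
  have ne : ∀ x y : G, orderOf x ≠ orderOf y → ¬ IsConj x y := fun x y e c => e (order_eq c)
  have p0 : PW ({1} : Finset G) := fun x hx y hy _ => by simp_all
  obtain ⟨p1, c1⟩ := p0.ins (a := t) (by simpa using (ord2.1 h.ot).2.symm)
  obtain ⟨p2, c2⟩ := p1.ins (a := f) fun y hy => ne _ _ (by
    simp only [Finset.mem_insert, Finset.mem_singleton] at hy
    rcases hy with rfl | rfl <;> simp [h.ot, h.of])
  obtain ⟨p3, c3⟩ := p2.ins (a := s) fun y hy => ne _ _ (by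
    simp only [Finset.mem_insert, Finset.mem_singleton] at hy
    rcases hy with rfl | rfl | rfl <;> simp [h.ot, h.of, h.os])
  obtain ⟨p4, c4⟩ := p3.ins (a := t * s) fun y hy => ne _ _ (by
    simp only [Finset.mem_insert, Finset.mem_singleton] at hy
    rw [h.o6]
    rcases hy with rfl | rfl | rfl | rfl <;> simp [h.ot, h.of, h.os])
  refine ⟨p4, by rw [c4, c3, c2, c1]; rfl, fun y hy => h.r23 _ (pi23 (n := 2) ?_)⟩
  simp only [Finset.mem_insert, Finset.mem_singleton] at hy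
  rcases hy with rfl | rfl | rfl | rfl | rfl <;> simp [h.ot, h.of, h.os, h.o6]

theorem six {a b : G} (ra : R a) (rb : R b) (na : New t f s a) (nb : New t f s b) : IsConj a b := by
  classical
  by_contra c
  obtain ⟨p, k, r⟩ := h.five
  obtain ⟨p1, c1⟩ := p.ins (a := a) (by
    simp only [Finset.mem_insert, Finset.mem_singleton, forall_eq_or_imp, forall_eq]
    exact ⟨na.2.2.2.2, na.2.2.2.1, na.2.2.1, na.2.1, na.1⟩)
  obtain ⟨p2, c2⟩ := p1.ins (a := b) (by
    simp only [Finset.mem_insert, Finset.mem_singleton, forall_eq_or_imp, forall_eq]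
    exact ⟨c, nb.2.2.2.2, nb.2.2.2.1, nb.2.2.1, nb.2.1, nb.1⟩)
  have := (h.cl _ p2 fun x hx => by
    rcases Finset.mem_insert.1 hx with rfl | hx
    · exact rb
    rcases Finset.mem_insert.1 hx with rfl | hx
    exacts [ra, r x hx]).1
  omega

theorem new_of {a : G} {n : ℕ} (o : orderOf a = n) (h1 : n ≠ 1) (h2 : n ≠ 2) (h4 : n ≠ 4)
    (h3 : n ≠ 3) (h6 : ¬ IsConj (t * s) a) : New t f s a :=
  ⟨fun c => h1 (by rw [← o, ← order_eq c, orderOf_one]), fun c => h2 (by rw [← o, ← order_eq c, h.ot]),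
    fun c => h4 (by rw [← o, ← order_eq c, h.of]), fun c => h3 (by rw [← o, ← order_eq c, h.os]), h6⟩

theorem two_ord {a b : G} {m n : ℕ} (ra : R a) (rb : R b) (oa : orderOf a = m) (ob : orderOf b = n)
    (hm : 4 < m) (hm' : m ≠ 6) (hn : 6 < n) : m = n := by
  rw [← oa, ← ob]
  exact order_eq (h.six ra rb
    (h.new_of oa (by omega) (by omega) (by omega) (by omega) fun c => hm' (by
      rw [← oa, ← order_eq c, h.o6]))
    (h.new_of ob (by omega) (by omega) (by omega) (by omega) fun c => by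
      have := order_eq c; rw [h.o6] at this; omega))

theorem c23 {x : G} (hx : orderOf x = 2 ∨ orderOf x = 3) : IsPi {2, 3} 𝒞[x] := by
  intro p hp d
  by_contra c
  simp only [Set.mem_insert_iff, Set.mem_singleton_iff, not_or] at c
  obtain ⟨y, hy, o⟩ := exists_orderOf_eq_of_dvd_card hp d
  have x1 : x ≠ 1 := fun e => by simp [e] at hx
  have rx : R x := h.r23 _ (pi23 (n := 1) (by rcases hx with e | e <;> simp [e]))
  have cm := (mem_cent1.1 hy).symm
  have p5 : 5 ≤ p := hp.five_le_of_ne_two_of_ne_three c.1 c.2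
  have p6 : p ≠ 6 := fun e => by rw [e] at hp; norm_num at hp
  have r2 := h.rc x (x * y) rx x1 (by rw [mul_assoc, ← cm])
  rcases hx with e | e
  · have := h.two_ord (h.rc x y rx x1 cm) r2 o (ord_mul cm e o
      ((Nat.coprime_primes Nat.prime_two hp).2 (Ne.symm c.1))) (by omega) p6 (by omega)
    omega
  · have := h.two_ord (h.rc x y rx x1 cm) r2 o (ord_mul cm e o
      ((Nat.coprime_primes Nat.prime_three hp).2 (Ne.symm c.2))) (by omega) p6 (by omega)
    omega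

theorem no9 {u y : G} (hu : orderOf u = 2) (hy : orderOf y = 9) : u * y ≠ y * u := fun c => by
  have o := ord_mul c hu hy (by norm_num)
  have := h.two_ord (h.r23 y (pi23 (n := 2) (by simp [hy]))) (h.r23 _ (pi23 (n := 2) (by simp [o])))
    hy o (by omega) (by omega) (by omega)
  omega

theorem syl3 {x : G} (hx : IsPiElt {3} x) : ∃ T, IsSylowOf 3 T ⊤ ∧ x ∈ T ∧ T ≤ 𝒞[x] := by
  obtain ⟨T, hT, l⟩ := exists_sylowOf_ge (isPi_zpowers.2 hx) le_top
  exact ⟨T, hT, l (mem_zpowers x), (abelian_iff.1 (h.ab3 T hT)).trans (cent_le_cent1 (l (mem_zpowers x)))⟩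

theorem abel {W : Subgroup G} (hW : IsPi {3} W) : IsMulCommutative W := by
  obtain ⟨T, hT, l⟩ := exists_sylowOf_ge hW le_top
  exact abelian_of_le (h.ab3 T hT) l

theorem no12 (g : G) : orderOf g ≠ 12 := by
  classical
  intro og
  have rg : R g := h.r23 _ (pi23 (n := 2) (by simp [og]))
  have ng := h.new_of og (by omega) (by omega) (by omega) (by omega) fun c => by
    have := order_eq c; rw [h.o6] at this; omega
  have all : ∀ x, R x → IsConj 1 x ∨ IsConj t x ∨ IsConj f x ∨ IsConj s x ∨ IsConj (t * s) x ∨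
      IsConj g x := fun x rx => by
    by_contra c
    simp only [not_or] at c
    exact c.2.2.2.2.2 (h.six rg rx ng ⟨c.1, c.2.1, c.2.2.1, c.2.2.2.1, c.2.2.2.2.1⟩)
  have same : ∀ x y, R x → R y → orderOf x = orderOf y → IsConj x y := fun x y rx ry e => by
    have o1 : orderOf (1 : G) = 1 := orderOf_one
    have := h.ot; have := h.of; have := h.os; have := h.o6
    rcases all x rx with a | a | a | a | a | a <;> rcases all y ry with b | b | b | b | b | b <;>
      first | exact a.symm.trans b | (have := order_eq a; have := order_eq b; omega)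
  have e12 : ∀ x, R x → x ^ 12 = 1 := fun x rx => by
    rw [← orderOf_dvd_iff_pow_eq_one]
    rcases all x rx with a | a | a | a | a | a <;> rw [← order_eq a] <;>
      simp [h.ot, h.of, h.os, h.o6, og]
  have os : orderOf (g ^ 4) = 3 := by rw [orderOf_pow, og]; rfl
  have of : orderOf (g ^ 3) = 4 := by rw [orderOf_pow, og]; rfl
  have fH : g ^ 3 ∈ 𝒞[g ^ 4] := mem_cent1.2 (by rw [← pow_add, ← pow_add])
  generalize g ^ 4 = r at os fH
  generalize g ^ 3 = e at of fH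
  set H := 𝒞[r] with hH
  have pH : IsPi {2, 3} H := h.c23 (Or.inr os)
  have cj2 : ∀ x ∈ H, ∀ y ∈ H, orderOf x ∣ 4 → orderOf y = orderOf x → y ∈ orb H x :=
    fun x hx y hy d e => by
      have c : (orderOf x).Coprime 3 := Nat.Coprime.coprime_dvd_left d (by norm_num)
      have a := ord_mul (mem_cent1.1 hx) rfl os c
      have b := ord_mul (mem_cent1.1 hy) e os c
      exact fus os hx hy (orderOf_dvd_iff_pow_eq_one.1 d) (orderOf_dvd_iff_pow_eq_one.1 (e ▸ d))
        (same _ _ (h.r23 _ (pH.elt (mul_mem hx (self_mem_cent1 r))))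
          (h.r23 _ (pH.elt (mul_mem hy (self_mem_cent1 r)))) (a.trans b.symm))
  obtain ⟨T, hT, rT, TH⟩ := h.syl3 (x := r) (by rw [IsPiElt, os]; exact (isPiNat_prime Nat.prime_three).2 rfl)
  have nT : ∀ u, orderOf u = 2 → ¬ T ≤ 𝒞[u] := fun u hu l => by
    obtain ⟨k, e⟩ := isConj_iff.1 (h.inv u hu)
    exact h.big e12 _ h.five.1 h.five.2.2 h.five.2.1.ge (cj k T) (hT.cj_of_mem (mem_top k))
      (by rw [← e, ← cj_cent1]; exact cj_mono k l)
  obtain ⟨S, hS, eS⟩ := exists_sylowOf_ge (p := 2) (X := zpowers e) (M := H)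
    (isPi_of_card_eq_pow (k := 2) Nat.prime_two (by rw [Nat.card_zpowers, of]; rfl)) (zpowers_le.2 fH)
  have eS := eS (mem_zpowers e)
  obtain ⟨e4, e2⟩ := ord4.1 of
  have oee := ord2.2 ⟨e4, e2⟩
  have two4 : ∀ y : G, IsPiElt {2} y → orderOf y ∣ 4 := fun y hy => by
    have := orderOf_dvd_of_pow_eq_one (e12 y (h.r23 y (IsPiNat.mono hy (by simp))))
    exact IsPiNat.dvd_of_dvd_mul_right (c := 4) (b := 3) hy
      ((isPiNat_prime Nat.prime_three).2 (by simp)) this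
  by_cases hD : piCoreOf {2} H = ⊥
  · have hT' := hT.sub TH le_top
    have n := normal3 (solv23 pH) pH hT' (h.ab3 T hT) (hD ▸ le_cent_bot T)
    have pr := hT'.isProd_of_index hS.le (pi3_of (pH.relIndex S) hS.index)
    have dj : T ⊓ S = ⊥ := hT.pi.inf_eq_bot (hS.pi.compl_singleton_of_ne (by norm_num))
    have k : ∀ x ∈ S, ∀ y ∈ S, y ∈ orb H x → y ∈ orb S x := by
      rintro x hx y hy ⟨n', hn, e⟩
      obtain ⟨a, ha, b, hb, rfl⟩ := pr.2.2 n' hn
      refine ⟨b, hb, ?_⟩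
      have m : b * x * b⁻¹ ∈ S := mul_mem (mul_mem hb hx) (inv_mem hb)
      have : y * (b * x * b⁻¹)⁻¹ ∈ T ⊓ S := mem_inf.2 ⟨by
        have := mul_mem ha (conj_mem_of_norm n (hS.le m) (inv_mem ha))
        rw [e]; convert this using 1; group, mul_mem hy (inv_mem m)⟩
      rw [dj, mem_bot] at this
      exact mul_inv_eq_one.1 this
    refine not_all_conj hS.pi.nilpotent eS of fun y hy => ?_
    rcases (Nat.dvd_prime_pow Nat.prime_two (i := orderOf y) (m := 2)).1 (two4 y (hS.pi.elt hy))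
      with ⟨_ | _ | _ | i, hi, o⟩
    · exact Or.inl (orderOf_eq_one_iff.1 o)
    · exact Or.inr (Or.inr (k _ (mul_mem eS eS) y hy (cj2 _ (mul_mem fH fH) y (hS.le hy)
        (by simp [oee]) (by rw [o, oee]; rfl))))
    · exact Or.inr (Or.inl (k _ eS y hy (cj2 _ fH y (hS.le hy) (by simp [of]) (by rw [o, of]; rfl))))
    · omega
  set D := piCoreOf {2} H
  have pD : IsPi {2} (D ⊓ 𝒞(D)) := (piCoreOf_pi _ _).inf_left _
  obtain ⟨z, hz, oz⟩ := exists_orderOf_eq_of_dvd_card Nat.prime_two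
    (pD.dvd_card (center_ne_bot_of_nilpotent (piCoreOf_pi _ _).nilpotent hD))
  have inD : ∀ u ∈ H, u * u = 1 → u ∈ D ⊓ 𝒞(D) := fun u hu u2 => by
    by_cases u1 : u = 1
    · exact u1 ▸ one_mem _
    obtain ⟨n, hn, rfl⟩ := cj2 z (piCoreOf_le _ _ hz.1) u hu (by simp [oz])
      (by rw [oz, ord2.2 ⟨u2, u1⟩])
    exact conj_mem_of_norm (norm_inf (le_norm_piCoreOf _ _) (norm_cent (le_norm_piCoreOf _ _))) hn hz
  let Z : Subgroup G :=
    { carrier := {x | x ∈ H ∧ x * x = 1}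
      one_mem' := ⟨one_mem _, mul_one _⟩
      inv_mem' := fun {x} hx => ⟨inv_mem hx.1, by rw [← mul_inv_rev, hx.2, inv_one]⟩
      mul_mem' := fun {x y} hx hy => ⟨mul_mem hx.1 hy.1, by
        have := (inD x hx.1 hx.2).2 y (inD y hy.1 hy.2).1
        rw [mul_assoc, ← mul_assoc y, this, mul_assoc, hy.2, mul_one, hx.2]⟩ }
  have mZ : ∀ x, x ∈ Z ↔ x ∈ H ∧ x * x = 1 := fun x => Iff.rfl
  have ZH : Z ≤ H := fun x hx => hx.1
  have nZ : H ≤ 𝒩(Z) := le_norm_iff.2 fun a ha x hx => ⟨mul_mem (mul_mem ha hx.1) (inv_mem ha), by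
    rw [conj_mul, hx.2]; simp⟩
  have pZ : IsPi {2} Z := pD.of_le fun x hx => inD x hx.1 hx.2
  obtain ⟨w, hw, w1⟩ := ne_bot_iff_exists.1 (inf_center_ne_bot_of_nilpotent hS.pi.nilpotent
    (hS.normal_le ZH nZ pZ) (hS.le.trans nZ)
    (ne_bot_iff_exists.2 ⟨e * e, ⟨mul_mem fH fH, e4⟩, e2⟩))
  have ow := ord2.2 ⟨hw.1.2, w1⟩
  obtain ⟨k, hk⟩ := orb3 pH hS (le_cent1_iff.2 hw.2)
  have oZ : orb H w = (Z : Set G) \ {1} := by
    refine Set.Subset.antisymm ?_ fun y hy => cj2 w hw.1.1 y hy.1.1 (by simp [ow])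
      (by rw [ow, ord2.2 ⟨hy.1.2, hy.2⟩])
    rintro _ ⟨n, hn, rfl⟩
    exact ⟨conj_mem_of_norm nZ hn hw.1, fun c => w1 (by simpa using c)⟩
  have cZ : ((Z : Set G) \ {1}).ncard + 1 = Nat.card Z :=
    Set.ncard_sdiff_singleton_add_one Z.one_mem (Set.toFinite _)
  rw [← oZ, hk] at cZ
  have Z4 : Nat.card Z = 4 := by
    obtain ⟨i, hi⟩ := pZ.exists_card_eq_pow Nat.prime_two
    have p3 : 0 < 3 ^ k := by positivity
    rcases i with _ | _ | _ | i
    · omega
    · refine absurd (TH.trans (relIndex_eq_one.1 ?_)) (nT w ow)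
      rw [← card_orb, hk]; omega
    · exact hi
    · exact absurd (cZ ▸ hi ▸ ⟨2 ^ i, by ring⟩) (pow_not8 (k := k))
  have sh : ∀ x ∈ H, orderOf x = 4 → ∀ y ∈ Z, orderOf (x * y) = 4 := fun x hx o y hy => by
    obtain ⟨x4, x2⟩ := ord4.1 o
    refine ord4.2 ⟨((mZ _).1 ?_).2, fun c => x2 ((mZ x).1 ?_).2⟩
    · have := mul_mem (mul_mem ((mZ _).2 ⟨mul_mem hx hx, x4⟩) (conj_mem_of_norm' nZ hx hy)) hy
      convert this using 1
      group
    · exact (Z.mul_mem_cancel_right hy).1 ⟨mul_mem hx hy.1, c⟩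
  have ce : Z ≤ 𝒞[e] := by
    by_contra c
    obtain ⟨y, hy, ye⟩ := SetLike.not_le_iff_exists.1 c
    have y' := conj_mem_of_norm' nZ fH hy
    have ee : e * e ∈ Z := ⟨mul_mem fH fH, e4⟩
    have cm : ∀ a ∈ Z, ∀ b ∈ Z, a * b = b * a := fun a ha b hb =>
      ((inD a ha.1 ha.2).2 b (inD b hb.1 hb.2).1).symm
    have q1 : e⁻¹ * y * e * y ≠ 1 := fun k => ye (mem_cent1.2 (by
      rw [← hy.2, mul_left_inj, mul_assoc, inv_mul_eq_iff_eq_mul] at k; exact k))
    have q2 : e⁻¹ * y * e * y ≠ e * e := fun k => (ord4.1 (sh e fH of y hy)).2 (by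
      rw [← e4]; nth_rewrite 2 [← k]; group)
    have q3 : e⁻¹ * y * e * y ∈ 𝒞[e] := mem_cent1.2 (by
      calc e⁻¹ * y * e * y * e = y * (e⁻¹ * y * e) * e := by rw [cm _ y' _ hy]
        _ = y * e⁻¹ * (y * (e * e)) := by simp only [mul_assoc]
        _ = y * e⁻¹ * (e * e * y) := by rw [cm _ hy _ ee]
        _ = _ := by simp only [mul_assoc, inv_mul_cancel_left, mul_inv_cancel_left])
    have l3 : 3 ≤ Nat.card ↥(Z ⊓ 𝒞[e]) := by
      have := Set.ncard_le_ncard (s := {1, e * e, e⁻¹ * y * e * y}) (t := ((Z ⊓ 𝒞[e] : Subgroup G) : Set G))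
        (by
          rintro _ (rfl | rfl | rfl)
          exacts [one_mem _, ⟨ee, mul_mem (self_mem_cent1 e) (self_mem_cent1 e)⟩,
            ⟨mul_mem y' hy, q3⟩]) (Set.toFinite _)
      rwa [Set.ncard_eq_three.2 ⟨_, _, _, e2.symm, q1.symm, q2.symm, rfl⟩] at this
    have d4 := card_dvd_of_le (inf_le_left : Z ⊓ 𝒞[e] ≤ Z)
    refine c (inf_eq_left.1 (eq_of_le_of_card_eq inf_le_left ?_))
    rw [Z4] at d4 ⊢
    have := Nat.le_of_dvd four_pos d4
    interval_cases Nat.card ↥(Z ⊓ 𝒞[e]) <;> simp_all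
  have d8 : 8 ∣ Nat.card ↥(𝒞[e] ⊓ H) := by
    have l : Z ⊔ zpowers e ≤ 𝒞[e] ⊓ H := sup_le (le_inf ce ZH) (zpowers_le.2 ⟨self_mem_cent1 e, fH⟩)
    refine Dvd.dvd.trans ?_ (card_dvd_of_le l)
    obtain ⟨i, hi⟩ := (pZ.sup (isPi_of_card_eq_pow (k := 2) Nat.prime_two
      (by rw [Nat.card_zpowers, of]; rfl)) (Or.inr ((zpowers_le.2 fH).trans nZ))).exists_card_eq_pow
      Nat.prime_two
    have := card_lt_of_lt (lt_of_le_of_ne (le_sup_left : Z ≤ Z ⊔ zpowers e) fun c =>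
      e2 ((mZ e).1 (c ▸ mem_sup_right (mem_zpowers e))).2)
    rw [Z4, hi] at this
    rw [hi]
    exact pow_dvd_pow 2 (show 3 ≤ i from (Nat.pow_lt_pow_iff_right (a := 2) (n := 2) (by norm_num)).1 this)
  have d4 : 4 ∣ (𝒞[e]).relIndex H := by
    rw [← card_orb, ← Z4]
    refine dvd_ncard ?_
    rintro _ ⟨n, hn, rfl⟩ y hy
    have m := mul_mem (mul_mem hn fH) (inv_mem hn)
    exact cj2 e fH _ (mul_mem m hy.1) (by simp [of])
      (by rw [of, sh _ m (by rw [orderOf_conj', of]) y hy])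
  have := normal_subgroupOf nZ
  have q2 : ∀ x : H, orderOf (x : H ⧸ Z.subgroupOf H) = 2 → orderOf (x : G) = 4 := fun x o => by
    obtain ⟨a, b⟩ := ord2.1 o
    rw [← QuotientGroup.mk_mul, QuotientGroup.eq_one_iff, mem_subgroupOf] at a
    rw [Ne, QuotientGroup.eq_one_iff, mem_subgroupOf] at b
    exact ord4.2 ⟨a.2, fun c => b ⟨x.2, c⟩⟩
  have cX := (Z.subgroupOf H).card_eq_card_quotient_mul_card_subgroup
  rw [card_subgroupOf_of_le ZH, Z4] at cX
  refine (ea (G := H ⧸ Z.subgroupOf H) (IsPiNat.of_dvd pH ⟨4, cX⟩) (fun x o => ?_)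
    fun u v _ hu hv _ => Or.inl ?_).1 ?_
  · obtain ⟨x, rfl⟩ := QuotientGroup.mk_surjective x
    have a := ord4.1 (q2 (x * x) (by rw [QuotientGroup.mk_mul]; exact ord2.2 (ord4.1 o)))
    have b : (x : G) ^ 8 = 1 := by
      rw [← a.1]; simp only [pow_succ, pow_zero, one_mul, mul_assoc, coe_mul]
    have c := orderOf_dvd_iff_pow_eq_one.1 (two4 x ((isPiNat_singleton_pow Nat.prime_two 3).of_dvd
      (orderOf_dvd_of_pow_eq_one b)))
    exact a.2 (by rw [← c]; simp only [pow_succ, pow_zero, one_mul, mul_assoc, coe_mul])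
  · obtain ⟨u, rfl⟩ := QuotientGroup.mk_surjective u
    obtain ⟨v, rfl⟩ := QuotientGroup.mk_surjective v
    exact (QuotientGroup.mk' _).map_isConj (isConj_mk.2 (cj2 _ u.2 _ v.2 (by simp [q2 u hu])
      (by rw [q2 u hu, q2 v hv])))
  · have := mul_dvd_mul d8 d4
    rw [card_inf_mul_relIndex, cX] at this
    exact Nat.dvd_of_mul_dvd_mul_right four_pos this

end PB

end Cfsg.Agent.SCS
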