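import Cfsg.Agent.SCS.PB1
import Cfsg.Agent.S0228

/-! The case of an element of order six: centralizers of elements of order three. -/

set_option autoImplicit false
set_option linter.unusedSectionVars false

namespace Cfsg.Agent.SCS

open Cfsg Cfsg.Agent.H49 Subgroup

theorem dvd12 {n : ℕ} (h : IsPiNat {2, 3} n) (h8 : ¬ 8 ∣ n) (h9 : ¬ 9 ∣ n) : n ∣ 12 := by
  refine (Nat.dvd_iff_prime_pow_dvd_dvd _ _).2 fun p k hp d => ?_
  rcases k with _ | k
  · simp
  rcases h p hp ((dvd_pow_self p k.succ_ne_zero).trans d) with rfl | rfl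
  · rcases k with _ | _ | k
    exacts [by norm_num, by norm_num, absurd ((pow_dvd_pow 2 (by omega : 3 ≤ k + 1 + 1 + 1)).trans d) h8]
  · rcases k with _ | k
    exacts [by norm_num, absurd ((pow_dvd_pow 3 (by omega : 2 ≤ k + 1 + 1)).trans d) h9]

variable {G : Type*} [Group G] [Finite G]

theorem exists3 {y : G} (hy : IsPiElt {3} y) (y1 : y ≠ 1) : ∃ r, orderOf r = 3 ∧ 𝒞[y] ≤ 𝒞[r] := by
  obtain ⟨r, hr, o⟩ := exists_orderOf_eq_of_dvd_card Nat.prime_three
    ((isPi_zpowers.2 hy).dvd_card (zpowers_ne_bot.2 y1))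
  exact ⟨r, o, cent_zpowers y ▸ cent_le_cent1 hr⟩

namespace PB

variable {R : G → Prop} {t f s : G} (h : PB R t f s)
include h

theorem loc {r : G} (hr : orderOf r = 3) : ¬ 8 ∣ Nat.card 𝒞[r] ∧
    ∀ u ∈ 𝒞[r], ∀ v ∈ 𝒞[r], orderOf u = 2 → orderOf v = 2 → v ∈ orb 𝒞[r] u := by
  refine ea' (h.c23 (Or.inr hr)) (fun x hx o => h.no12 _ (ord_mul (mem_cent1.1 hx) o hr (by norm_num)))
    fun u hu v hv w hw ou ov ow => ?_
  have o : ∀ x ∈ 𝒞[r], orderOf x = 2 → orderOf (x * r) = 6 := fun x hx o =>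
    ord_mul (mem_cent1.1 hx) o hr (by norm_num)
  have p : ∀ x : G, orderOf x = 2 → x ^ 4 = 1 := fun x o => orderOf_dvd_iff_pow_eq_one.1 (by simp [o])
  have k : ∀ x ∈ 𝒞[r], ∀ y ∈ 𝒞[r], orderOf x = 2 → orderOf y = 2 →
      (IsConj (t * s) (x * r) ↔ IsConj (t * s) (y * r)) → y ∈ orb 𝒞[r] x := fun x hx y hy ox oy e => by
    refine fus hr hx hy (p x ox) (p y oy) ?_
    by_cases c : IsConj (t * s) (x * r)
    · exact c.symm.trans (e.1 c)
    · exact h.six (h.r23 _ (pi23 (n := 1) (by simp [o x hx ox])))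
        (h.r23 _ (pi23 (n := 1) (by simp [o y hy oy])))
        (h.new_of (o x hx ox) (by omega) (by omega) (by omega) (by omega) c)
        (h.new_of (o y hy oy) (by omega) (by omega) (by omega) (by omega) fun c' => c (e.2 c'))
  have := k u hu v hv ou ov
  have := k u hu w hw ou ow
  have := k v hv w hw ov ow
  tauto

theorem n9 {u : G} (hu : orderOf u = 2) : ¬ 9 ∣ Nat.card 𝒞[u] := by
  rw [cent_card (h.inv u hu)]
  intro d
  have pC := h.c23 (Or.inl h.ot)
  obtain ⟨W, hW⟩ := exists_sylowOf 3 𝒞[t]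
  have ab := h.abel hW.pi
  by_cases cy : IsCyclic W
  · obtain ⟨w, hw⟩ := cy.exists_ofOrder_eq_natCard
    have e := card_mul_relIndex hW.le
    have d9 : 9 ∣ orderOf (w : G) := by
      rw [orderOf_coe, hw]
      exact (isPiNat_singleton_pow Nat.prime_three 2).dvd_of_dvd_mul_right hW.index (e ▸ d)
    exact h.no9 h.ot (orderOf_pow_orderOf_div (orderOf_pos _).ne' d9)
      (mem_cent1.1 (pow_mem (hW.le w.2) _)).symm
  set D := piCoreOf {2} 𝒞[t]
  have pD : IsPi {2} D := piCoreOf_pi _ _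
  have nD : W ≤ 𝒩(D) := hW.le.trans (le_norm_piCoreOf _ _)
  have tD : t ∈ D := le_piCoreOf (zpowers_le.2 (self_mem_cent1 t))
    (norm_of_cent (cent_zpowers t).ge)
    (isPi_of_card_eq_prime Nat.prime_two (by rw [Nat.card_zpowers, h.ot])) (mem_zpowers t)
  have := coprime_le_of_cent1 (Y := 𝒞(W)) ab cy nD
    (hW.pi.coprime (pD.compl_singleton_of_ne (by norm_num))) fun w hw w1 b hb => by
      obtain ⟨r, hr, l⟩ := exists3 (hW.pi.elt hw) w1
      have nB : W ≤ 𝒩(D ⊓ 𝒞[w]) := norm_inf nD (norm_of_le ((abelian_iff.1 ab).trans (cent_le_cent1 hw)))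
      have tB : t ∈ D ⊓ 𝒞[w] := ⟨tD, mem_cent1_comm.1 (hW.le hw)⟩
      have c4 : Nat.card ↥(D ⊓ 𝒞[w]) ≤ 4 := by
        obtain ⟨i, hi⟩ := (pD.inf_left 𝒞[w]).exists_card_eq_pow Nat.prime_two
        have := card_dvd_of_le (inf_le_right.trans l : D ⊓ 𝒞[w] ≤ 𝒞[r])
        rw [hi] at this ⊢
        by_contra c
        exact (h.loc hr).1 ((pow_dvd_pow 2 (show 3 ≤ i from (Nat.pow_lt_pow_iff_right (a := 2) (n := 2)
          (by norm_num)).1 (not_le.1 c))).trans this)
      rw [← le_cent1_iff]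
      by_cases b1 : b = 1
      · exact fun x _ => mem_cent1.2 (by simp [b1])
      by_cases bt : b = t
      · exact bt ▸ hW.le
      have s1 : insert 1 (insert t (orb W b)) ⊆ ((D ⊓ 𝒞[w] : Subgroup G) : Set G) := by
        rintro _ (rfl | rfl | ⟨n, hn, rfl⟩)
        exacts [one_mem _, tB, conj_mem_of_norm nB hn hb]
      have s2 : t ∉ orb W b := fun c => by
        obtain ⟨n, hn, e⟩ := orb_symm c
        exact bt (by rw [e, mem_cent1.1 (hW.le hn), mul_inv_cancel_right])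
      have s3 : 1 ∉ insert t (orb W b) := by
        rintro (c | ⟨n, hn, e⟩)
        exacts [(ord2.1 h.ot).2 c.symm, b1 (by simpa using e.symm)]
      have s4 := Set.ncard_le_ncard s1 (Set.toFinite _)
      rw [Set.ncard_insert_of_notMem s3 (Set.toFinite _), Set.ncard_insert_of_notMem s2 (Set.toFinite _),
        card_orb] at s4
      obtain ⟨k, hk⟩ := (isPiNat_singleton Nat.prime_three (relIndex_pos _ _).ne').1
        (hW.pi.relIndex 𝒞[b])
      refine relIndex_eq_one.1 ?_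
      rcases k with _ | k
      · exact hk
      · have := Nat.le_of_dvd (relIndex_pos _ _) (hk ▸ dvd_pow_self 3 k.succ_ne_zero : 3 ∣ (𝒞[b]).relIndex W)
        have := s4.trans c4
        omega
  have hW' : IsPiHallOf {2}ᶜ W 𝒞[t] := hW.congr fun p hp d =>
    ⟨fun e => by rw [show p = 3 from e]; simp, fun e => (pC p hp d).resolve_left e⟩
  exact h.nn ((hasNormalPComplement_iff Nat.prime_two).2 (hW'.hall_piCoreOf
    (normal3 (solv23 pC) pC hW ab (cent_symm this))))

theorem c12 {r u : G} (hr : orderOf r = 3) (hu : orderOf u = 2) (c : u ∈ 𝒞[r]) :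
    Nat.card ↥(𝒞[u] ⊓ 𝒞[r]) = 12 ∧ Nat.card 𝒞[u * r] ≤ 12 := by
  have cm : Commute u r := mem_cent1.1 c
  have u2 : u ^ 2 = 1 := hu ▸ pow_orderOf_eq_one u
  have r3 : r ^ 3 = 1 := hr ▸ pow_orderOf_eq_one r
  have l : 𝒞[u * r] ≤ 𝒞[u] ⊓ 𝒞[r] := by
    rw [← cent_zpowers]
    refine le_inf (cent_le_cent1 ⟨(3 : ℕ), ?_⟩) (cent_le_cent1 ⟨(4 : ℕ), ?_⟩)
    · simp only [zpow_natCast]
      rw [cm.mul_pow, r3, pow_succ, u2]; simp
    · simp only [zpow_natCast]
      rw [cm.mul_pow, pow_succ r, r3, show 4 = 2 * 2 from rfl, pow_mul, u2]; simp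
  have a := (h.cl {u * r} (fun x hx y hy _ => by simp_all) (by
    simpa using h.r23 _ (pi23 (n := 1) (by simp [ord_mul cm.eq hu hr (by norm_num)])))).2
  rw [Finset.sum_singleton, one_div_lt_one_div (by exact_mod_cast Nat.card_pos) (by norm_num)] at a
  have a' : 6 < Nat.card 𝒞[u * r] := by exact_mod_cast a
  have b := card_le_of_le l
  have d := dvd12 ((h.c23 (Or.inr hr)).inf_right 𝒞[u])
    (fun k => (h.loc hr).1 (k.trans (card_dvd_of_le inf_le_right)))
    fun k => h.n9 hu (k.trans (card_dvd_of_le inf_le_left))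
  have := Nat.le_of_dvd (by norm_num) d
  have e : Nat.card ↥(𝒞[u] ⊓ 𝒞[r]) = 12 := by
    generalize Nat.card ↥(𝒞[u] ⊓ 𝒞[r]) = n at *
    have : 6 < n := by omega
    interval_cases n <;> simp_all
  omega

theorem str {r : G} (hr : orderOf r = 3) (ev : 2 ∣ Nat.card 𝒞[r]) : Nat.card 𝒞[r] = 36 ∧
    ∃ E : Subgroup G, E ≤ 𝒞[r] ∧ Nat.card E = 4 ∧ 𝒞[r] ≤ 𝒩(E) := by
  set H := 𝒞[r] with hH
  have pH : IsPi {2, 3} H := h.c23 (Or.inr hr)
  obtain ⟨E, hE⟩ := exists_sylowOf 2 H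
  obtain ⟨u, hu, ou⟩ := exists_orderOf_eq_of_dvd_card Nat.prime_two (hE.dvd_card Nat.prime_two rfl ev)
  obtain ⟨l1, l2⟩ := h.loc hr
  have c1 := (h.c12 hr ou (hE.le hu)).1
  have E4 : Nat.card E = 4 := by
    obtain ⟨i, hi⟩ := hE.pi.exists_card_eq_pow Nat.prime_two
    have a : 2 ^ 2 ∣ Nat.card E := (isPiNat_singleton_pow Nat.prime_two 2).dvd_of_dvd_mul_right hE.index
      (card_mul_relIndex hE.le ▸ (show 4 ∣ 12 by norm_num).trans (c1 ▸ card_dvd_of_le inf_le_right))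
    have b := card_dvd_of_le hE.le
    rw [hi] at a b ⊢
    rcases i with _ | _ | _ | i
    · norm_num at a
    · norm_num at a
    · rfl
    · exact absurd ((pow_dvd_pow 2 (by omega : 3 ≤ i + 1 + 1 + 1)).trans b) l1
  have o2 : ∀ a ∈ E, a ≠ 1 → orderOf a = 2 := fun a ha a1 => by
    rcases (Nat.dvd_prime_pow Nat.prime_two (i := orderOf a) (m := 2)).1
      (show orderOf a ∣ 4 from E4 ▸ orderOf_dvd_natCard _ ha) with ⟨_ | _ | _ | i, hi, o⟩
    · exact absurd (orderOf_eq_one_iff.1 o) a1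
    · exact o
    · exact absurd (ord_mul (mem_cent1.1 (hE.le ha)) o hr (by norm_num)) (h.no12 _)
    · omega
  have nD : piCoreOf {2} H ≠ ⊥ := fun hD => by
    have : Fact (Nat.Prime 2) := ⟨Nat.prime_two⟩
    have ab : IsMulCommutative E := IsPGroup.isMulCommutative_of_card_eq_prime_sq (p := 2) E4
    have pP : IsPi {3} (piCoreOf {3} H) := piCoreOf_pi _ _
    have z3 : Nat.card (zpowers r) = 3 := by rw [Nat.card_zpowers, hr]
    have rP : zpowers r ≤ piCoreOf {3} H := le_piCoreOf (zpowers_le.2 (self_mem_cent1 r))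
      (norm_of_cent (cent_zpowers r).ge) (isPi_of_card_eq_prime Nat.prime_three z3)
    have := coprime_le_of_cent1 (Y := zpowers r) ab (fun cy => by
        obtain ⟨w, hw⟩ := cy.exists_ofOrder_eq_natCard
        rw [E4, ← orderOf_coe] at hw
        have := o2 w w.2 fun c => by simp [c] at hw
        omega) (hE.le.trans (le_norm_piCoreOf {3} H))
      (hE.pi.coprime (pP.compl_singleton_of_ne (by norm_num))) fun a ha a1 => by
        refine (eq_of_le_of_card_ge (le_inf rP (zpowers_le.2 (mem_cent1_comm.1 (hE.le ha)))) ?_).ge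
        have d := card_dvd_of_le (le_inf inf_le_right (inf_le_left.trans (piCoreOf_le {3} H)) :
          piCoreOf {3} H ⊓ 𝒞[a] ≤ 𝒞[a] ⊓ 𝒞[r])
        rw [(h.c12 hr (o2 a ha a1) (hE.le ha)).1] at d
        rw [z3]
        exact Nat.le_of_dvd three_pos (IsPiNat.dvd_of_dvd_mul_right (b := 4) (pP.inf_left _)
          ((isPiNat_compl_singleton Nat.prime_three).2 (by norm_num)) d)
    have uP := cent_pcore_le (p := 3) (solv23 pH) (by
      rw [← hD]
      exact piCoreOf_congr fun p hp d => ⟨fun e => (pH p hp d).resolve_right e, fun e => by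
        rw [show p = 2 from e]; simp⟩) ⟨hE.le hu, cent_anti this (cent_zpowers r ▸ hE.le hu)⟩
    have := pP.elt uP 2 Nat.prime_two ou.symm.dvd
    simp at this
  obtain ⟨z, hz, oz⟩ := exists_orderOf_eq_of_dvd_card Nat.prime_two ((piCoreOf_pi _ _).dvd_card nD)
  have eD : E = piCoreOf {2} H := le_antisymm (fun a ha => by
    by_cases a1 : a = 1
    · exact a1 ▸ one_mem _
    obtain ⟨n, hn, rfl⟩ := l2 z (piCoreOf_le _ _ hz) a (hE.le ha) oz (o2 a ha a1)
    exact conj_mem_of_norm (le_norm_piCoreOf _ _) hn hz) hE.piCoreOf_le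
  have nE : H ≤ 𝒩(E) := eD ▸ le_norm_piCoreOf _ _
  refine ⟨?_, E, hE.le, E4, nE⟩
  have oE : orb H u = (E : Set G) \ {1} := by
    refine Set.Subset.antisymm ?_ fun y hy => l2 u (hE.le hu) y (hE.le hy.1) ou (o2 y hy.1 hy.2)
    rintro _ ⟨n, hn, rfl⟩
    exact ⟨conj_mem_of_norm nE hn hu, fun c => (ord2.1 ou).2 (by simpa using c)⟩
  have cE : ((E : Set G) \ {1}).ncard + 1 = Nat.card E :=
    Set.ncard_sdiff_singleton_add_one E.one_mem (Set.toFinite _)
  rw [← oE, card_orb, E4] at cE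
  rw [← card_inf_mul_relIndex 𝒞[u] H, c1]
  omega

theorem even {y : G} (hy : IsPiElt {3} y) (y1 : y ≠ 1) : 2 ∣ Nat.card 𝒞[y] := by
  classical
  by_contra c
  have tS : t ∈ 𝒞[s] := mem_cent1.2 h.ts
  obtain ⟨T, hT, -, l⟩ := h.syl3 (x := s)
    (by rw [IsPiElt, h.os]; exact (isPiNat_prime Nat.prime_three).2 rfl)
  have d := card_dvd_of_le l
  rw [(h.str h.os (h.ot ▸ orderOf_dvd_natCard _ tS)).1] at d
  obtain ⟨r, hr, l'⟩ := exists3 hy y1
  have p3 : IsPi {3} 𝒞[y] := pi3_of ((h.c23 (Or.inr hr)).of_le l')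
    ((isPiNat_compl_singleton Nat.prime_two).2 c)
  have a : Nat.card 𝒞[y] ≤ 9 := Nat.le_of_dvd (by norm_num) ((hT.card_dvd le_top p3).trans
    (IsPiNat.dvd_of_dvd_mul_right (b := 4) hT.pi
      ((isPiNat_compl_singleton Nat.prime_three).2 (by norm_num)) d))
  have b := (h.c12 h.os h.ot tS).2
  have nc : ¬ IsConj (t * s) y := fun k => by
    have := hy 2 Nat.prime_two (by rw [← order_eq k, h.o6]; norm_num)
    simp at this
  have p0 : PW ({t * s} : Finset G) := fun x hx y hy _ => by simp_all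
  have := (h.cl _ (p0.ins (a := y) (by simpa using nc)).1 (by
    simp only [Finset.mem_insert, Finset.mem_singleton, forall_eq_or_imp, forall_eq]
    exact ⟨h.r23 _ (IsPiNat.mono hy (by simp)), h.r23 _ (pi23 (n := 1) (by simp [h.o6]))⟩)).2
  rw [Finset.sum_pair (show y ≠ t * s from fun e => nc (by rw [e]))] at this
  have a' := one_div_le_one_div_of_le (a := (Nat.card 𝒞[y] : ℚ)) (b := 9)
    (by exact_mod_cast Nat.card_pos) (by exact_mod_cast a)
  have b' := one_div_le_one_div_of_le (a := (Nat.card 𝒞[t * s] : ℚ)) (b := 12)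
    (by exact_mod_cast Nat.card_pos) (by exact_mod_cast b)
  linarith

theorem a4 {r : G} (hr : orderOf r = 3) :
    Nonempty (𝒞[r] ≃* Multiplicative (ZMod 3) × alternatingGroup (Fin 4)) := by
  have pr : IsPiElt {3} r := by rw [IsPiElt, hr]; exact (isPiNat_prime Nat.prime_three).2 rfl
  obtain ⟨c36, E, EH, E4, nE⟩ := h.str hr (h.even pr fun e => by simp [e] at hr)
  obtain ⟨T, hT, rT, l⟩ := h.syl3 pr
  have hT' := hT.sub l le_top
  have z3 : Nat.card (zpowers r) = 3 := by rw [Nat.card_zpowers, hr]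
  have d9 : 3 ^ 2 ∣ Nat.card T := (isPiNat_singleton_pow Nat.prime_three 2).dvd_of_dvd_mul_right
    hT'.index (by rw [card_mul_relIndex l, c36]; norm_num)
  obtain ⟨x, hx, xr⟩ : ∃ x ∈ T, x ∉ zpowers r := SetLike.not_le_iff_exists.1 fun c => by
    have := d9.trans (card_dvd_of_le c)
    rw [z3] at this
    norm_num at this
  have ox : orderOf x = 3 := by
    have d := orderOf_dvd_natCard _ (l hx)
    rw [c36] at d
    rcases (Nat.dvd_prime_pow Nat.prime_three (m := 2)).1 (IsPiNat.dvd_of_dvd_mul_right (b := 4)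
      (hT.pi.elt hx) ((isPiNat_compl_singleton Nat.prime_three).2 (by norm_num)) d)
      with ⟨_ | _ | _ | i, hi, o⟩
    · exact absurd (orderOf_eq_one_iff.1 o ▸ one_mem _) xr
    · exact o
    · obtain ⟨u, hu, ou⟩ := exists_orderOf_eq_of_dvd_card Nat.prime_two
        (h.even (hT.pi.elt hx) fun e => xr (e ▸ one_mem _))
      exact absurd (mem_cent1.1 hu) (h.no9 ou o)
    · omega
  have x3 : Nat.card (zpowers x) = 3 := by rw [Nat.card_zpowers, ox]
  have rc : zpowers r ≤ 𝒞(𝒞[r]) := cent_symm (cent_zpowers r).ge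
  have c9 : Nat.card ↥(zpowers x ⊔ zpowers r) = 9 := by
    rw [card_sup_of_disjoint (Or.inr (norm_of_cent (rc.trans (cent_anti (zpowers_le.2 (l hx))))))
      ((inf_eq_bot_or_le_of_prime_card (x3 ▸ Nat.prime_three) _).resolve_right
        fun c => xr (c (mem_zpowers x))), x3, z3]
  have LH : E ⊔ zpowers x ≤ 𝒞[r] := sup_le EH (zpowers_le.2 (l hx))
  have c12 : Nat.card ↥(E ⊔ zpowers x) = 12 := by
    rw [card_sup_of_disjoint (Or.inr ((zpowers_le.2 (l hx)).trans nE))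
      (H49.inf_eq_bot_of_coprime (by rw [E4, x3]; norm_num)), E4, x3]
  obtain ⟨e1⟩ := S0228.result c12 fun z oz c => h.n9 (u := z) (by rwa [orderOf_coe]) (by
    rw [← c9]
    exact card_dvd_of_le (sup_le (zpowers_le.2 (mem_cent1.2 (congrArg Subtype.val
      (mem_center_iff.1 c ⟨x, mem_sup_right (mem_zpowers x)⟩))))
      (zpowers_le.2 (mem_cent1_comm.1 (LH z.2)))))
  obtain ⟨e2⟩ := prod_equiv (zpowers_le.2 (self_mem_cent1 r)) LH (rc.trans (cent_anti LH))
    ((inf_eq_bot_or_le_of_prime_card (z3 ▸ Nat.prime_three) _).resolve_right fun c => by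
      have := card_dvd_of_le (sup_le le_sup_right c : zpowers x ⊔ zpowers r ≤ E ⊔ zpowers x)
      rw [c9, c12] at this
      norm_num at this) (by rw [z3, c12, c36])
  have : Fact (Nat.Prime 3) := ⟨Nat.prime_three⟩
  exact ⟨e2.trans ((mulEquivOfPrimeCardEq z3 (by simp)).prodCongr e1)⟩

end PB

end Cfsg.Agent.SCS
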